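import Cfsg.Agent.Lib.SuBN.Frame

/-!
Column reduction in `SU_n`: `SU_n` is generated by the upper triangular and the monomial elements.
-/

set_option autoImplicit false
set_option linter.unusedSectionVars false
set_option linter.unusedSimpArgs false

namespace Cfsg.Agent.Lib.SuBN.Col

open scoped Matrix
open Cfsg Cfsg.Agent.Lib.SpBN.Mat
open Cfsg.Agent.Lib.Classical.Herm.Basic Cfsg.Agent.Lib.Classical.Herm.SU Cfsg.Agent.Lib.Classical.Herm.Tv
open Cfsg.Agent.Lib.Classical.Herm.Subfield Cfsg.Agent.Lib.Classical.Herm.Comm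
open Cfsg.Agent.Lib.Fusion.PSU.Basis Cfsg.Agent.Lib.Fusion.PSU.Basis.WB Cfsg.Agent.Lib.Fusion.PSU.Upper
open Cfsg.Agent.Lib.SuBN.Frame

variable {F : Type*} [Field F] [Fintype F] {q n : ℕ}

local notation "⟪" x ", " y "⟫" => hermForm _ _ q x y

theorem q_pos (hF : Fintype.card F = q ^ 2) : q ≠ 0 := by
  rintro rfl
  simp at hF

/-- The elements upper triangular in the first `j` columns. -/
def PP (W : WB F q n) (j : ℕ) : Submonoid (SU n F q) where
  carrier := {g | ∀ c r : Fin n, c.val < j → c.val < r.val → W.M g r c = 0}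
  mul_mem' := by
    intro a b ha hb c r hc hr
    rw [W.M_mul, Matrix.mul_apply]
    refine Finset.sum_eq_zero fun x _ => ?_
    by_cases h1 : c.val < x.val
    · rw [hb c x hc h1, mul_zero]
    · rw [ha x r (by omega) (by omega), zero_mul]
  one_mem' := by
    intro c r _ hr
    rw [W.M_one, Matrix.one_apply_ne]
    rintro rfl
    exact lt_irrefl _ hr

theorem mem_PP {W : WB F q n} {j : ℕ} {g : SU n F q} :
    g ∈ PP W j ↔ ∀ c r : Fin n, c.val < j → c.val < r.val → W.M g r c = 0 := Iff.rfl

theorem PP_of_isU {W : WB F q n} {j : ℕ} {u : SU n F q} (hu : IsU (rho W) Fin.val u) :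
    u ∈ PP W j := fun c r _ hr => hu.1 r c hr

/-- The column below the antidiagonal vanishes. -/
theorem col_zero (hF : Fintype.card F = q ^ 2) {W : WB F q n} {j : ℕ} (hj : 2 * j + 1 < n) {g : SU n F q}
    (hg : g ∈ PP W j) (j' : Fin n) (hj' : j'.val = j) (r : Fin n) (hr : (Fin.rev j').val < r.val) :
    W.M g r j' = 0 := by
  have h1 := inv_of_finite _ hg
  have h2 := h1 (Fin.rev r) (Fin.rev j')
    (by have := r.2; have := j'.2; simp only [Fin.val_rev] at hr ⊢; omega)
    (by have := r.2; have := j'.2; simp only [Fin.val_rev] at hr ⊢; omega)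
  rw [M_inv hF, Fin.rev_rev, Fin.rev_rev] at h2
  exact pow_eq_zero_iff (q_pos hF) |>.1 h2

/-- The columns are isotropic. -/
theorem col_iso (hF : Fintype.card F = q ^ 2) (W : WB F q n) (g : SU n F q) (j' : Fin n)
    (hne : j' ≠ Fin.rev j') :
    ∑ x, (W.M g (Fin.rev x) j') ^ q * W.M g x j' = 0 := by
  have h := congrFun (congrFun (W.M_mul g⁻¹ g) (Fin.rev j')) j'
  rw [inv_mul_cancel, W.M_one, Matrix.one_apply_ne hne.symm, Matrix.mul_apply] at h
  simp only [M_inv hF, Fin.rev_rev] at h
  exact h.symm

/-- Clearing a column with a Siegel element. -/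
theorem reduce (hF : Fintype.card F = q ^ 2) {W : WB F q n} {j : ℕ} (hj : 2 * j + 1 < n) {g : SU n F q}
    (hg : g ∈ PP W j) (j' : Fin n) (hj' : j'.val = j) (ha : W.M g (Fin.rev j') j' ≠ 0) :
    ∃ u, IsU (rho W) Fin.val u ∧ ∀ r : Fin n, j ≤ r.val → r ≠ Fin.rev j' → W.M (u⁻¹ * g) r j' = 0 := by
  classical
  have hne : j' ≠ Fin.rev j' := by
    intro e
    have h1 : j'.val = (Fin.rev j').val := by rw [← e]
    rw [Fin.val_rev] at h1
    omega
  have hrevj : (Fin.rev j').val = n - 1 - j := by
    rw [Fin.val_rev]
    omega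
  set a := W.M g (Fin.rev j') j' with ha_def
  set v : Fin n → F := fun r => W.M g r j' with hv
  have hva : v (Fin.rev j') = a := rfl
  have hv0 : ∀ r : Fin n, n - 1 - j < r.val → v r = 0 := fun r hr =>
    col_zero hF hj hg j' hj' r (by omega)
  have hiso : ∑ x, (v (Fin.rev x)) ^ q * v x = 0 := col_iso hF W g j' hne
  set cw : Fin n → F := fun i => if j < i.val ∧ i.val < n - 1 - j then v i / a else 0 with hcw
  set ww := W.P *ᵥ cw with hww
  have he : ⟪W.u j', W.u j'⟫ = 0 := iso_of_ne W hne
  have hcc : ∀ i, W.cc i ww = cw i := fun i => cc_P W cw i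
  have hcw0 : ∀ i : Fin n, n - 1 - j ≤ i.val → cw i = 0 := by
    intro i hi
    simp only [hcw]
    rw [if_neg]
    omega
  have hcw1 : cw j' = 0 := by
    simp only [hcw]
    rw [if_neg]
    omega
  have hwe : ⟪ww, W.u j'⟫ = 0 := by
    rw [W.form_right, hcc]
    exact hcw0 _ hrevj.ge
  set β := v j' / a with hβdef
  have haq : a ^ q ≠ 0 := pow_ne_zero _ ha
  have hβ : β + β ^ q + ⟪ww, ww⟫ = 0 := by
    rw [hww, form_P hF W cw cw]
    have key : ∀ x : Fin n, cw x * (cw (Fin.rev x)) ^ q + (if x = j' then β else 0)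
        + (if x = Fin.rev j' then β ^ q else 0) =
        (v (Fin.rev x)) ^ q * v x / (a ^ q * a) := by
      intro x
      have hx := x.2
      have hrevx : (Fin.rev x).val = n - 1 - x.val := by
        rw [Fin.val_rev]
        omega
      by_cases h1 : x = j'
      · subst h1
        rw [if_pos rfl, if_neg hne, hcw1, hva, hβdef]
        field_simp
        ring
      by_cases h2 : x = Fin.rev j'
      · subst h2
        rw [if_neg h1, if_pos rfl, hcw0 _ hrevj.ge, Fin.rev_rev, hva, hβdef, div_pow]
        field_simp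
        ring
      rw [if_neg h1, if_neg h2]
      have h1' : x.val ≠ j := fun e => h1 (Fin.ext (by omega))
      have h2' : x.val ≠ n - 1 - j := fun e => h2 (Fin.ext (by omega))
      by_cases h3 : x.val < j
      · rw [hv0 (Fin.rev x) (by omega), zero_pow (q_pos hF), zero_mul, zero_div]
        simp only [hcw]
        rw [if_neg (by omega)]
        ring
      by_cases h4 : x.val < n - 1 - j
      · have e1 : cw x = v x / a := by
          simp only [hcw]
          rw [if_pos (by omega)]
        have e2 : cw (Fin.rev x) = v (Fin.rev x) / a := by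
          simp only [hcw]
          rw [if_pos (by omega)]
        rw [e1, e2, div_pow]
        field_simp
        ring
      · rw [hv0 x (by omega), mul_zero, zero_div]
        simp only [hcw]
        rw [if_neg (by omega)]
        ring
    have hsum := Finset.sum_congr (rfl : (Finset.univ : Finset (Fin n)) = Finset.univ) fun x _ => key x
    rw [Finset.sum_add_distrib, Finset.sum_add_distrib, Finset.sum_ite_eq', Finset.sum_ite_eq',
      if_pos (Finset.mem_univ _), if_pos (Finset.mem_univ _), ← Finset.sum_div, hiso, zero_div] at hsum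
    rw [revForm]
    linear_combination hsum
  let u := siegel hF he hwe hβ
  have hu : W.IsU u := isU_siegel hF he hwe hβ (fun i hi => by
      rw [hcc]
      apply hcw0
      have : (Fin.rev j').val ≤ i.val := hi
      omega) (fun h => by
      exfalso
      have : (Fin.rev j').val ≤ j'.val := h
      omega)
  have hM : ∀ i c, W.M u i c = (if i = c then 1 else 0) +
      (if j' = Fin.rev c then cw i else 0) - (cw (Fin.rev c)) ^ q * (if i = j' then 1 else 0)
      + β * (if j' = Fin.rev c then 1 else 0) * (if i = j' then 1 else 0) := by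
    intro i c
    rw [M_siegel hF he hwe hβ, hcc, hcc]
  let d : Fin n → F := fun r => if r = Fin.rev j' then a else if r.val < j then v r else 0
  have hd : W.M u *ᵥ d = v := by
    funext i
    have key : ∀ c, W.M u i c * d c = (if c = Fin.rev j' then a * W.M u i (Fin.rev j') else 0)
        + (if c = i then (if i.val < j then v i else 0) else 0) := by
      intro c
      by_cases h1 : c = Fin.rev j'
      · subst h1
        have e : d (Fin.rev j') = a := if_pos rfl
        have e2 : (if Fin.rev j' = i then (if i.val < j then v i else 0) else 0) = 0 := by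
          split_ifs with h3 h4
          · subst h3
            omega
          · rfl
          · rfl
        rw [e, e2, if_pos rfl, add_zero]
        ring
      · rw [if_neg h1, zero_add]
        by_cases h2 : c.val < j
        · have h3 : j' ≠ Fin.rev c := by
            intro e
            have : j'.val = (Fin.rev c).val := by rw [← e]
            rw [Fin.val_rev] at this
            have := c.2
            omega
          have h4 : cw (Fin.rev c) = 0 := hcw0 _ (by rw [Fin.val_rev]; have := c.2; omega)
          have e : W.M u i c = if i = c then 1 else 0 := by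
            rw [hM, if_neg h3, h4, zero_pow (q_pos hF)]
            simp [h3]
          have e2 : d c = v c := by
            simp only [d]
            rw [if_neg h1, if_pos h2]
          rw [e, e2]
          by_cases h5 : c = i
          · subst h5
            rw [if_pos rfl, if_pos rfl, if_pos h2, one_mul]
          · rw [if_neg (Ne.symm h5), if_neg h5, zero_mul]
        · have e2 : d c = 0 := by
            simp only [d]
            rw [if_neg h1, if_neg h2]
          rw [e2, mul_zero]
          by_cases h5 : c = i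
          · subst h5
            rw [if_pos rfl, if_neg h2]
          · rw [if_neg h5]
    show ∑ c, W.M u i c * d c = v i
    simp only [key]
    rw [Finset.sum_add_distrib, Finset.sum_ite_eq', Finset.sum_ite_eq', if_pos (Finset.mem_univ _),
      if_pos (Finset.mem_univ _), hM, Fin.rev_rev, if_pos rfl, hcw1, zero_pow (q_pos hF), zero_mul, sub_zero,
      if_pos rfl]
    have hi := i.2
    by_cases h1 : i = Fin.rev j'
    · subst h1
      have h3 : ¬ (Fin.rev j').val < j := by omega
      rw [if_pos rfl, if_neg hne.symm, hcw0 _ hrevj.ge, if_neg h3, hva]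
      ring
    rw [if_neg h1]
    by_cases h2 : i = j'
    · subst h2
      rw [if_pos rfl, hcw1, if_neg (by omega), hβdef]
      field_simp
      ring
    rw [if_neg h2]
    have h1' : i.val ≠ n - 1 - j := fun e => h1 (Fin.ext (by omega))
    have h2' : i.val ≠ j := fun e => h2 (Fin.ext (by omega))
    by_cases h3 : i.val < j
    · have e : cw i = 0 := by
        simp only [hcw]
        rw [if_neg (by omega)]
      rw [if_pos h3, e]
      ring
    rw [if_neg h3]
    by_cases h4 : i.val < n - 1 - j
    · have e : cw i = v i / a := by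
        simp only [hcw]
        rw [if_pos (by omega)]
      rw [e]
      field_simp
      ring
    · rw [hcw0 i (by omega), hv0 i (by omega)]
      ring
  refine ⟨u, ⟨hu.1, hu.2⟩, fun r hr hrr => ?_⟩
  have e1 : W.M (u⁻¹ * g) r j' = (W.M u⁻¹ *ᵥ v) r := by
    rw [W.M_mul, Matrix.mul_apply]
    rfl
  rw [e1, ← hd, Matrix.mulVec_mulVec, ← W.M_mul, inv_mul_cancel, W.M_one, Matrix.one_mulVec]
  simp only [d]
  rw [if_neg hrr, if_neg (by omega)]

/-- Monomial elements: moving a nonzero entry of the column to the antidiagonal. -/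
theorem rev_swap (a b x : Fin n) :
    Equiv.swap (Fin.rev a) (Fin.rev b) (Fin.rev x) = Fin.rev (Equiv.swap a b x) := by
  simp only [Equiv.swap_apply_def, Fin.rev_inj]
  split_ifs <;> rfl

/-- One step of the column reduction. -/
theorem step (hF : Fintype.card F = q ^ 2) {W : WB F q n} (K : Subgroup (SU n F q))
    (hU : ∀ u, IsU (rho W) Fin.val u → u ∈ K)
    (hN : ∀ π : Equiv.Perm (Fin n), (∀ x, π (Fin.rev x) = Fin.rev (π x)) →
      ∃ w ∈ K, IsMo (rho W) w π)
    {j : ℕ} (hj : 2 * j + 1 < n) {g : SU n F q} (hg : g ∈ PP W j) :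
    ∃ κ ∈ K, κ * g ∈ PP W (j + 1) := by
  classical
  let j' : Fin n := ⟨j, by omega⟩
  have hj' : j'.val = j := rfl
  have hrevj : (Fin.rev j').val = n - 1 - j := by
    rw [Fin.val_rev]
    omega
  have hne : j' ≠ Fin.rev j' := by
    intro e
    have h1 : j'.val = (Fin.rev j').val := by rw [← e]
    omega
  by_cases h0 : ∀ r : Fin n, j < r.val → W.M g r j' = 0
  · refine ⟨1, K.one_mem, ?_⟩
    rw [one_mul]
    intro c r hc hr
    by_cases h1 : c.val < j
    · exact hg c r h1 hr
    · have : c = j' := Fin.ext (by omega)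
      subst this
      exact h0 r hr
  have hv0 : ∀ r : Fin n, n - 1 - j < r.val → W.M g r j' = 0 := fun r hr =>
    col_zero hF hj hg j' hj' r (by omega)
  -- a nonzero entry away from the middle
  have hex : ∃ i : Fin n, j < i.val ∧ W.M g i j' ≠ 0 ∧ i ≠ Fin.rev i := by
    by_contra hcon
    push Not at hcon
    obtain ⟨i₀, hi₀, hi₀'⟩ : ∃ i₀ : Fin n, j < i₀.val ∧ W.M g i₀ j' ≠ 0 := by
      push Not at h0
      exact h0
    have hmid := hcon i₀ hi₀ hi₀'
    have hiso := col_iso hF W g j' hne
    rw [Finset.sum_eq_single i₀] at hiso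
    · rw [← hmid] at hiso
      exact mul_ne_zero (pow_ne_zero _ hi₀') hi₀' hiso
    · intro x _ hx
      have hx2 := x.2
      have hrevx : (Fin.rev x).val = n - 1 - x.val := by
        rw [Fin.val_rev]
        omega
      by_cases h1 : j < x.val
      · have h2 : x ≠ Fin.rev x := by
          intro e
          apply hx
          have h3 : x.val = (Fin.rev x).val := by rw [← e]
          have h4 : i₀.val = (Fin.rev i₀).val := by rw [← hmid]
          rw [Fin.val_rev] at h4
          exact Fin.ext (by omega)
        by_cases h3 : W.M g x j' = 0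
        · rw [h3, mul_zero]
        · exact absurd (hcon x h1 h3) h2
      · have h2 : W.M g (Fin.rev x) j' = 0 := by
          by_cases h3 : x.val < j
          · exact hv0 _ (by omega)
          · have h4 : x = j' := Fin.ext (by omega)
            subst h4
            by_cases h5 : W.M g (Fin.rev j') j' = 0
            · exact h5
            · have := hcon (Fin.rev j') (by omega) h5
              rw [Fin.rev_rev] at this
              exact absurd this.symm hne
        rw [h2, zero_pow (q_pos hF), zero_mul]
    · simp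
  obtain ⟨i, hi, hvi, hii⟩ := hex
  have hi2 : i.val ≤ n - 1 - j := by
    by_contra h
    exact hvi (hv0 i (by omega))
  have hrevi : (Fin.rev i).val = n - 1 - i.val := by
    have := i.2
    rw [Fin.val_rev]
    omega
  -- the monomial element
  obtain ⟨w, hwK, hwP, hne'⟩ : ∃ w ∈ K, w ∈ PP W j ∧ W.M (w * g) (Fin.rev j') j' ≠ 0 := by
    by_cases hir : i = Fin.rev j'
    · subst hir
      exact ⟨1, K.one_mem, (PP W j).one_mem, by rwa [one_mul]⟩
    have hi3 : i ≠ j' := by
      intro e
      rw [e] at hi
      omega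
    let π : Equiv.Perm (Fin n) := Equiv.swap i (Fin.rev j') * Equiv.swap (Fin.rev i) j'
    have hπ : ∀ x, π (Fin.rev x) = Fin.rev (π x) := by
      intro x
      have e1 : Equiv.swap (Fin.rev i) j' (Fin.rev x) = Fin.rev (Equiv.swap i (Fin.rev j') x) := by
        conv_lhs => rw [← Fin.rev_rev j']
        exact rev_swap _ _ _
      have e2 : ∀ y, Equiv.swap i (Fin.rev j') (Fin.rev y) = Fin.rev (Equiv.swap (Fin.rev i) j' y) := by
        intro y
        conv_lhs => rw [← Fin.rev_rev i]
        exact rev_swap _ _ _
      have e3 : Equiv.swap i (Fin.rev j') * Equiv.swap (Fin.rev i) j'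
          = Equiv.swap (Fin.rev i) j' * Equiv.swap i (Fin.rev j') := by
        have hnd : [i, Fin.rev j', Fin.rev i, j'].Nodup := by
          simp only [List.nodup_cons, List.mem_cons, List.not_mem_nil, or_false, not_or, List.nodup_nil,
            and_true, not_false_eq_true]
          refine ⟨⟨hir, hii, hi3⟩, ⟨fun e => hi3 (Fin.rev_injective e).symm, hne.symm⟩, ?_⟩
          intro e
          apply hir
          rw [← e, Fin.rev_rev]
        exact Equiv.Perm.Disjoint.commute (Equiv.Perm.disjoint_swap_swap hnd)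
      simp only [π, Equiv.Perm.mul_apply, e1, e2]
      have := congrArg (fun τ : Equiv.Perm (Fin n) => τ x) e3
      simp only [Equiv.Perm.mul_apply] at this
      rw [this]
    obtain ⟨w, hwK, hw⟩ := hN π hπ
    have hfix : ∀ c : Fin n, c.val < j → π c = c := by
      intro c hc
      have h1 : c ≠ Fin.rev i := by
        intro e
        rw [e] at hc
        omega
      have h2 : c ≠ j' := by
        intro e
        rw [e] at hc
        omega
      have h3 : c ≠ i := by
        intro e
        rw [e] at hc
        omega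
      have h4 : c ≠ Fin.rev j' := by
        intro e
        rw [e] at hc
        omega
      simp only [π, Equiv.Perm.mul_apply]
      rw [Equiv.swap_apply_of_ne_of_ne h1 h2, Equiv.swap_apply_of_ne_of_ne h3 h4]
    refine ⟨w, hwK, fun c r hc hr => ?_, ?_⟩
    · by_contra h
      have := (hw r c).1 h
      rw [hfix c hc] at this
      subst this
      exact lt_irrefl _ hr
    · have e : (π⁻¹ : Equiv.Perm (Fin n)) (Fin.rev j') = i := by
        rw [Equiv.Perm.inv_eq_iff_eq]
        simp only [π, Equiv.Perm.mul_apply]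
        rw [Equiv.swap_apply_of_ne_of_ne hii hi3, Equiv.swap_apply_left]
      rw [W.M_mul]
      have h1 := hw.apply_mul (W.M g) (Fin.rev j') j'
      rw [e] at h1
      have h2 := hw.ne_zero' (Fin.rev j')
      rw [e] at h2
      show (rho W w * W.M g) (Fin.rev j') j' ≠ 0
      rw [h1]
      exact mul_ne_zero h2 hvi
  -- clear the column
  obtain ⟨u, hu, hd⟩ := reduce hF hj ((PP W j).mul_mem hwP hg) j' hj' hne'
  have hπ2 : ∀ x, Equiv.swap j' (Fin.rev j') (Fin.rev x) = Fin.rev (Equiv.swap j' (Fin.rev j') x) := by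
    intro x
    have := rev_swap j' (Fin.rev j') x
    rw [Fin.rev_rev, Equiv.swap_comm] at this
    rw [this, Equiv.swap_comm]
  obtain ⟨w₂, hw₂K, hw₂⟩ := hN _ hπ2
  refine ⟨w₂ * (u⁻¹ * w), K.mul_mem hw₂K (K.mul_mem (K.inv_mem (hU u hu)) hwK), ?_⟩
  have hfix : ∀ c : Fin n, c.val < j → Equiv.swap j' (Fin.rev j') c = c := by
    intro c hc
    apply Equiv.swap_apply_of_ne_of_ne
    · intro e
      rw [e] at hc
      omega
    · intro e
      rw [e] at hc
      omega
  have hw₂P : w₂ ∈ PP W j := by
    intro c r hc hr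
    by_contra h
    have := (hw₂ r c).1 h
    rw [hfix c hc] at this
    subst this
    exact lt_irrefl _ hr
  have hP : u⁻¹ * (w * g) ∈ PP W j :=
    (PP W j).mul_mem (inv_of_finite _ (PP_of_isU hu)) ((PP W j).mul_mem hwP hg)
  rw [show w₂ * (u⁻¹ * w) * g = w₂ * (u⁻¹ * (w * g)) by group]
  intro c r hc hr
  by_cases h1 : c.val < j
  · exact (PP W j).mul_mem hw₂P hP c r h1 hr
  have h2 : c = j' := Fin.ext (by omega)
  subst h2
  rw [W.M_mul]
  show (rho W w₂ * W.M _) r j' = 0
  rw [hw₂.apply_mul, Equiv.swap_inv]
  have hrj : r ≠ j' := by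
    intro e
    rw [e] at hr
    exact lt_irrefl _ hr
  have h3 : Equiv.swap j' (Fin.rev j') r ≠ Fin.rev j' := by
    intro e
    rw [Equiv.swap_apply_eq_iff, Equiv.swap_apply_right] at e
    exact hrj e
  have h4 : j ≤ (Equiv.swap j' (Fin.rev j') r).val := by
    by_cases h5 : r = Fin.rev j'
    · rw [h5, Equiv.swap_apply_right]
    · rw [Equiv.swap_apply_of_ne_of_ne hrj h5]
      exact hr.le
  rw [hd _ h4 h3, mul_zero]

/-- Any element can be multiplied into an upper triangular one. -/
theorem top (hF : Fintype.card F = q ^ 2) {W : WB F q n} (K : Subgroup (SU n F q))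
    (hU : ∀ u, IsU (rho W) Fin.val u → u ∈ K)
    (hN : ∀ π : Equiv.Perm (Fin n), (∀ x, π (Fin.rev x) = Fin.rev (π x)) →
      ∃ w ∈ K, IsMo (rho W) w π) (j : ℕ) (hj : 2 * j ≤ n) (g : SU n F q) :
    ∃ κ ∈ K, κ * g ∈ PP W j := by
  induction j with
  | zero =>
    exact ⟨1, K.one_mem, fun c r hc => absurd hc (Nat.not_lt_zero _)⟩
  | succ j ih =>
    obtain ⟨κ, hκ, h⟩ := ih (by omega)
    obtain ⟨κ', hκ', h'⟩ := step hF K hU hN (j := j) (by omega) h
    refine ⟨κ' * κ, K.mul_mem hκ' hκ, ?_⟩
    rw [mul_assoc]
    exact h'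

theorem isUp_of_half (hF : Fintype.card F = q ^ 2) {W : WB F q n} {g : SU n F q}
    (hg : g ∈ PP W (n / 2)) : W.IsUp g := by
  intro r c hlt
  have hlt' : c.val < r.val := hlt
  by_cases h : c.val < n / 2
  · exact hg c r h hlt'
  have h1 := inv_of_finite _ hg
  have := r.2
  have := c.2
  have h2 := h1 (Fin.rev r) (Fin.rev c) (by rw [Fin.val_rev]; omega) (by rw [Fin.val_rev, Fin.val_rev]; omega)
  rw [M_inv hF, Fin.rev_rev, Fin.rev_rev] at h2
  exact pow_eq_zero_iff (q_pos hF) |>.1 h2

/-- An upper triangular element is a product of a unitriangular element and a diagonal one. -/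
theorem factor (hF : Fintype.card F = q ^ 2) {W : WB F q n} {g : SU n F q} (hg : W.IsUp g) :
    ∃ u h, IsU (rho W) Fin.val u ∧ IsMo (rho W) h 1 ∧ g = u * h := by
  classical
  set d : Fin n → F := fun i => W.M g i i with hd
  have hdd : ∀ i, (d (Fin.rev i)) ^ q * d i = 1 := by
    intro i
    have h := congrFun (congrFun (W.M_mul g⁻¹ g) i) i
    rw [inv_mul_cancel, W.M_one, Matrix.one_apply_eq, Matrix.mul_apply, Finset.sum_eq_single i] at h
    · rw [M_inv hF] at h
      exact h.symm
    · intro x _ hx
      rcases lt_or_gt_of_ne hx with hlt | hlt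
      · rw [M_inv hF, hg (Fin.rev x) (Fin.rev i) (Fin.rev_lt_rev.2 hlt), zero_pow (q_pos hF), zero_mul]
      · rw [hg x i hlt, mul_zero]
    · simp
  have hd0 : ∀ i, d i ≠ 0 := fun i h => by
    have := hdd i
    rw [h, mul_zero] at this
    exact zero_ne_one this
  let A : Matrix (Fin n) (Fin n) F := Matrix.diagonal d
  have h1 : stA q A * A = 1 := by
    have : stA q A = Matrix.diagonal fun i => (d (Fin.rev i)) ^ q := by
      ext r c
      rw [stA_apply]
      by_cases h : r = c
      · subst h
        simp [A]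
      · have e : A (Fin.rev c) (Fin.rev r) = 0 :=
          Matrix.diagonal_apply_ne _ (fun e => h (Fin.rev_injective e).symm)
        rw [e, zero_pow (q_pos hF), Matrix.diagonal_apply_ne _ h]
    rw [this, Matrix.diagonal_mul_diagonal, ← Matrix.diagonal_one]
    congr 1
    funext i
    exact hdd i
  have h2 : A.det = 1 := by
    rw [Matrix.det_diagonal]
    exact W.prod_diag hg
  let h := mkG hF W A h1 h2
  have hMh : W.M h = A := M_mkG hF W A h1 h2
  have hmo : IsMo (rho W) h 1 := by
    intro r c
    rw [rho_apply, hMh]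
    by_cases hrc : r = c
    · subst hrc
      simp [A, hd0]
    · simp [A, hrc, Matrix.diagonal_apply_ne]
  refine ⟨g * h⁻¹, h, ?_, hmo, by group⟩
  have key : ∀ r c, W.M (g * h⁻¹) r c * d c = W.M g r c := by
    intro r c
    have e := hmo.mul_apply (W.M (g * h⁻¹)) r c
    have e2 : W.M (g * h⁻¹) * rho W h = W.M g := by
      rw [rho_apply, ← W.M_mul]
      congr 1
      group
    rw [e2] at e
    rw [e, rho_apply, hMh]
    simp [A]
  constructor
  · intro r c hlt
    have := key r c
    rw [hg r c hlt] at this
    exact (mul_eq_zero.1 this).resolve_right (hd0 c)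
  · intro r
    have := key r r
    have e : W.M g r r = 1 * d r := by rw [one_mul]
    rw [e] at this
    exact mul_right_cancel₀ (hd0 r) this

/-- `SU_n` is generated by the upper triangular and the monomial elements. -/
theorem gen_top (hF : Fintype.card F = q ^ 2) {W : WB F q n} (K : Subgroup (SU n F q))
    (hU : ∀ u, IsU (rho W) Fin.val u → u ∈ K)
    (hH : ∀ h, IsMo (rho W) h 1 → h ∈ K)
    (hN : ∀ π : Equiv.Perm (Fin n), (∀ x, π (Fin.rev x) = Fin.rev (π x)) →
      ∃ w ∈ K, IsMo (rho W) w π) : K = ⊤ := by
  rw [eq_top_iff]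
  intro g _
  obtain ⟨κ, hκ, h⟩ := top hF K hU hN (n / 2) (by omega) g
  obtain ⟨u, t, hu, ht, e⟩ := factor hF (isUp_of_half hF h)
  have h1 : κ * g ∈ K := by
    rw [e]
    exact K.mul_mem (hU u hu) (hH t ht)
  have h2 := K.mul_mem (K.inv_mem hκ) h1
  rwa [inv_mul_cancel_left] at h2

end Cfsg.Agent.Lib.SuBN.Col
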