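import Cfsg.Agent.Lib.SuBN.Last
import Cfsg.Agent.Lib.SuBN.Col

/-!
The root data of `SU_n` and the generation of `SU_n` by the upper triangular and the monomial elements.
-/

set_option autoImplicit false
set_option linter.unusedSectionVars false
set_option linter.unusedSimpArgs false

namespace Cfsg.Agent.Lib.SuBN.Gen

open scoped Matrix
open Cfsg Cfsg.Agent.Lib.SpBN.Mat Cfsg.Agent.Lib.SpBN.RootGen
open Cfsg.Agent.Lib.Classical.Herm.Basic Cfsg.Agent.Lib.Classical.Herm.SU Cfsg.Agent.Lib.Classical.Herm.Tv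
open Cfsg.Agent.Lib.Classical.Herm.Subfield Cfsg.Agent.Lib.Classical.Herm.Comm
open Cfsg.Agent.Lib.Fusion.PSU.Basis Cfsg.Agent.Lib.Fusion.PSU.Basis.WB Cfsg.Agent.Lib.Fusion.PSU.Upper
open Cfsg.Agent.Lib.SuBN.Frame Cfsg.Agent.Lib.SuBN.Emb Cfsg.Agent.Lib.SuBN.Small Cfsg.Agent.Lib.SuBN.Weyl
open Cfsg.Agent.Lib.SuBN.Types Cfsg.Agent.Lib.SuBN.Last

variable {F : Type*} [Field F] [Fintype F] {q m ε : ℕ}

local notation "NN" => (2 * m + 2 + ε)
local notation "⟪" x ", " y "⟫" => hermForm _ _ q x y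

/-- The data of the last simple root. -/
structure LastData (W : WB F q (2 * m + 2 + ε)) where
  e : SU (2 * m + 2 + ε) F q
  he : IsMo (rho W) e tL
  dec : ∀ u, IsU (rho W) Fin.val u → ∃ a ∈ Ys (rho W) Fin.val Fin.val_injective tL,
    ∃ x ∈ Xs (rho W) Fin.val Fin.val_injective tL, u = a * x
  sl2 : ∀ x ∈ Xs (rho W) Fin.val Fin.val_injective tL, e * x * e⁻¹ = 1 ∨
    ∃ x₁ ∈ Xs (rho W) Fin.val Fin.val_injective tL, ∃ h, IsMo (rho W) h 1 ∧
      ∃ x₂ ∈ Xs (rho W) Fin.val Fin.val_injective tL, e * x * e⁻¹ = x₁ * e * h * x₂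
  ne : ∃ x ∈ Xs (rho W) Fin.val Fin.val_injective tL, ∃ r c,
    IsInv Fin.val (tL (m := m) (ε := ε)) r c ∧ rho W x r c ≠ 0

variable (hF : Fintype.card F = q ^ 2) {W : WB F q (2 * m + 2 + ε)} (L : LastData W)

/-- All the reflections. -/
noncomputable def ee : Option (Fin m) → SU NN F q
  | some i => eA hF W i
  | none => L.e

theorem isMo_ee (j : Option (Fin m)) : IsMo (rho W) (ee hF L j) (tt j) := by
  cases j with
  | some i => exact isMo_eA hF W i
  | none => exact L.he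

theorem lift' (hε : ε ≤ 1) {π : Equiv.Perm (Fin NN)} (hπ : ∀ x, π (Fin.rev x) = Fin.rev (π x)) :
    ∃ w ∈ Subgroup.closure (Set.range (ee hF L)), IsMo (rho W) w π := by
  have h := mem_QQ hε hπ
  induction h using Subgroup.closure_induction with
  | mem y hy =>
    obtain ⟨j, rfl⟩ := hy
    exact ⟨ee hF L j, Subgroup.subset_closure ⟨j, rfl⟩, isMo_ee hF L j⟩
  | one => exact ⟨1, Subgroup.one_mem _, isMo_one⟩
  | mul a b ha hb iha ihb =>
    obtain ⟨w, hw, hw'⟩ := iha (QQ_comm ha)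
    obtain ⟨v, hv, hv'⟩ := ihb (QQ_comm hb)
    exact ⟨w * v, Subgroup.mul_mem _ hw hv, hw'.mul hv'⟩
  | inv a ha iha =>
    obtain ⟨w, hw, hw'⟩ := iha (QQ_comm ha)
    exact ⟨w⁻¹, Subgroup.inv_mem _ hw, hw'.inv⟩

/-- The root data of `SU_n`. -/
noncomputable def rd (hε : ε ≤ 1) : RD (rho W) Fin.val (Option (Fin m)) where
  ho := Fin.val_injective
  e := ee hF L
  τ := tt
  he := isMo_ee hF L
  hτ := tt_sq
  inj := tt_inj
  lift := fun g π hg => lift' hF L hε (IsMo.rev_comm hF W hg)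
  dec := by
    intro j u hu
    cases j with
    | some i => exact dec_A hF W i hu
    | none => exact L.dec u hu
  sl2 := by
    intro j x hx
    cases j with
    | some i => exact sl2_A hF W i hx
    | none => exact L.sl2 x hx
  dich := fun j g π hg => dich hε (IsMo.rev_comm hF W hg) j
  ne := by
    intro j
    cases j with
    | some i => exact ne_A hF W i
    | none => exact L.ne

theorem hG (hε : ε ≤ 1) :
    (Uu (rho W) Fin.val (rd hF L hε).ho ⊔ Hh (rho W)) ⊔ Nn (rho W) = ⊤ := by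
  apply Cfsg.Agent.Lib.SuBN.Col.gen_top hF
  · intro u hu
    exact Subgroup.mem_sup_left (Subgroup.mem_sup_left hu)
  · intro h hh
    exact Subgroup.mem_sup_left (Subgroup.mem_sup_right hh)
  · intro π hπ
    obtain ⟨w, _, hw⟩ := lift' hF L hε hπ
    exact ⟨w, Subgroup.mem_sup_right ⟨π, hw⟩, hw⟩

include hF L in
/-- The Steinberg character of `PSU_n`. -/
theorem steinberg (p : ℕ) [Fact p.Prime] [CharP F p] (hε : ε ≤ 1) :
    ∃ χ : (SU NN F q ⧸ Subgroup.center (SU NN F q)) → ℂ,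
      Cfsg.IsIrrCharacter (SU NN F q ⧸ Subgroup.center (SU NN F q)) χ ∧
      ∀ Q : Sylow p (SU NN F q ⧸ Subgroup.center (SU NN F q)), χ 1 = Nat.card Q ∧
        ∀ x : SU NN F q ⧸ Subgroup.center (SU NN F q), x ∈ Q → x ≠ 1 → χ x = 0 :=
  (rd hF L hε).quot (hG hF L hε) (rho_inj W) p (fun r c h => cover r c h hε)
    (fun i k hk => ⟨⟨k, by have := i.2; omega⟩, rfl⟩)

end Cfsg.Agent.Lib.SuBN.Gen
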