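import Mathlib
import Cfsg.Agent.Lib.SuBN.Frame
import Cfsg.Agent.Lib.SpBN.RootGen

/-!
Block embeddings of small unitary matrices in `SU_n`.
-/

set_option autoImplicit false
set_option linter.unusedSectionVars false
set_option linter.unusedSimpArgs false

namespace Cfsg.Agent.Lib.SuBN.Emb

open scoped Matrix
open Cfsg Cfsg.Agent.Lib.SpBN.Mat Cfsg.Agent.Lib.SpBN.RootGen
open Cfsg.Agent.Lib.Classical.Herm.Basic
open Cfsg.Agent.Lib.Fusion.PSU.Basis Cfsg.Agent.Lib.SuBN.Frame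

variable {F : Type*} [Field F] {n d : ℕ}

/-- The decomposition of the index set along an injective map. -/
noncomputable def eqv (f : Fin d → Fin n) (hf : Function.Injective f) :
    Fin d ⊕ {x // ¬ (x ∈ Set.range f)} ≃ Fin n := by
  classical
  exact (Equiv.sumCongr (Equiv.ofInjective f hf) (Equiv.refl _)).trans (Equiv.sumCompl (· ∈ Set.range f))

theorem eqv_inl (f : Fin d → Fin n) (hf : Function.Injective f) (i : Fin d) :
    eqv f hf (Sum.inl i) = f i := by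
  simp [eqv]

theorem eqv_inr (f : Fin d → Fin n) (hf : Function.Injective f) (x : {x // ¬ (x ∈ Set.range f)}) :
    eqv f hf (Sum.inr x) = x.1 := by
  simp [eqv]

/-- The block embedding. -/
noncomputable def emb (f : Fin d → Fin n) (hf : Function.Injective f) (z : Matrix (Fin d) (Fin d) F) :
    Matrix (Fin n) (Fin n) F :=
  (Matrix.fromBlocks z 0 0 1).submatrix (eqv f hf).symm (eqv f hf).symm

variable {f : Fin d → Fin n} {hf : Function.Injective f}

theorem emb_ff (z : Matrix (Fin d) (Fin d) F) (i j : Fin d) : emb f hf z (f i) (f j) = z i j := by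
  rw [← eqv_inl f hf, ← eqv_inl f hf]
  simp [emb]

theorem emb_fo (z : Matrix (Fin d) (Fin d) F) (i : Fin d) {x : Fin n} (hx : ¬ x ∈ Set.range f) :
    emb f hf z (f i) x = 0 := by
  have e : eqv f hf (Sum.inr ⟨x, hx⟩) = x := eqv_inr f hf ⟨x, hx⟩
  rw [← eqv_inl f hf, ← e]
  simp [emb]

theorem emb_of (z : Matrix (Fin d) (Fin d) F) (i : Fin d) {x : Fin n} (hx : ¬ x ∈ Set.range f) :
    emb f hf z x (f i) = 0 := by
  have e : eqv f hf (Sum.inr ⟨x, hx⟩) = x := eqv_inr f hf ⟨x, hx⟩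
  rw [← eqv_inl f hf, ← e]
  simp [emb]

theorem emb_oo (z : Matrix (Fin d) (Fin d) F) {x y : Fin n} (hx : ¬ x ∈ Set.range f)
    (hy : ¬ y ∈ Set.range f) : emb f hf z x y = if x = y then 1 else 0 := by
  have e : eqv f hf (Sum.inr ⟨x, hx⟩) = x := eqv_inr f hf ⟨x, hx⟩
  have e' : eqv f hf (Sum.inr ⟨y, hy⟩) = y := eqv_inr f hf ⟨y, hy⟩
  rw [← e, ← e']
  simp only [emb, Matrix.submatrix_apply, Equiv.symm_apply_apply, Matrix.fromBlocks_apply₂₂,
    Matrix.one_apply, EmbeddingLike.apply_eq_iff_eq, Subtype.mk.injEq]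
  simp

theorem emb_mul (z z' : Matrix (Fin d) (Fin d) F) :
    emb f hf (z * z') = emb f hf z * emb f hf z' := by
  simp only [emb]
  rw [Matrix.submatrix_mul_equiv, Matrix.fromBlocks_multiply]
  simp

theorem emb_one : emb f hf (1 : Matrix (Fin d) (Fin d) F) = 1 := by
  simp only [emb, Matrix.fromBlocks_one, Matrix.submatrix_one_equiv]

theorem det_emb (z : Matrix (Fin d) (Fin d) F) : (emb f hf z).det = z.det := by
  simp only [emb]
  rw [Matrix.det_submatrix_equiv_self, Matrix.det_fromBlocks_zero₂₁, Matrix.det_one, mul_one]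

variable [Fintype F] {q : ℕ}

theorem stA_emb (hF : Fintype.card F = q ^ 2) (hrev : ∀ i, f (Fin.rev i) = Fin.rev (f i))
    (z : Matrix (Fin d) (Fin d) F) : stA q (emb f hf z) = emb f hf (stA q z) := by
  have hnot : ∀ x, ¬ x ∈ Set.range f → ¬ Fin.rev x ∈ Set.range f := by
    rintro x hx ⟨a, ha⟩
    apply hx
    refine ⟨Fin.rev a, ?_⟩
    rw [hrev, ha, Fin.rev_rev]
  ext r c
  rw [stA_apply]
  by_cases hr : r ∈ Set.range f <;> by_cases hc : c ∈ Set.range f
  · obtain ⟨i, rfl⟩ := hr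
    obtain ⟨j, rfl⟩ := hc
    rw [← hrev, ← hrev, emb_ff, emb_ff, stA_apply]
  · obtain ⟨i, rfl⟩ := hr
    rw [← hrev, emb_of _ _ (hnot c hc), emb_fo _ _ hc, zero_pow_q hF]
  · obtain ⟨j, rfl⟩ := hc
    rw [← hrev, emb_fo _ _ (hnot r hr), emb_of _ _ hr, zero_pow_q hF]
  · rw [emb_oo _ (hnot c hc) (hnot r hr), emb_oo _ hr hc]
    by_cases h : r = c
    · subst h
      simp
    · have h' : ¬ Fin.rev c = Fin.rev r := fun e => h (Fin.rev_injective e).symm
      rw [if_neg h, if_neg h', zero_pow_q hF]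

/-- The element of `SU` given by a small matrix. -/
noncomputable def mk (hF : Fintype.card F = q ^ 2) (W : WB F q n) (hf : Function.Injective f)
    (hrev : ∀ i, f (Fin.rev i) = Fin.rev (f i)) (z : Matrix (Fin d) (Fin d) F)
    (h1 : stA q z * z = 1) (h2 : z.det = 1) : SU n F q :=
  mkG hF W (emb f hf z) (by rw [stA_emb hF hrev, ← emb_mul, h1, emb_one]) (by rw [det_emb, h2])

section

variable (hF : Fintype.card F = q ^ 2) (W : WB F q n) (hrev : ∀ i, f (Fin.rev i) = Fin.rev (f i))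
  {z : Matrix (Fin d) (Fin d) F} (h1 : stA q z * z = 1) (h2 : z.det = 1)

theorem M_mk : W.M (mk hF W hf hrev z h1 h2) = emb f hf z := M_mkG _ _ _ _ _

theorem isU_mk (hm : StrictMono f) (hz : ∀ i j, j < i → z i j = 0) (hz1 : ∀ i, z i i = 1) :
    IsU (rho W) Fin.val (mk hF W hf hrev z h1 h2) := by
  constructor
  · intro r c hc
    rw [rho_apply, M_mk]
    by_cases hr : r ∈ Set.range f <;> by_cases hc' : c ∈ Set.range f
    · obtain ⟨i, rfl⟩ := hr
      obtain ⟨j, rfl⟩ := hc'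
      rw [emb_ff]
      exact hz i j (hm.lt_iff_lt.1 hc)
    · obtain ⟨i, rfl⟩ := hr
      rw [emb_fo _ _ hc']
    · obtain ⟨j, rfl⟩ := hc'
      rw [emb_of _ _ hr]
    · rw [emb_oo _ hr hc', if_neg]
      rintro rfl
      exact lt_irrefl _ hc
  · intro r
    rw [rho_apply, M_mk]
    by_cases hr : r ∈ Set.range f
    · obtain ⟨i, rfl⟩ := hr
      rw [emb_ff, hz1]
    · rw [emb_oo _ hr hr, if_pos rfl]

theorem isMo_mk {τ : Equiv.Perm (Fin n)} {τ' : Equiv.Perm (Fin d)} (hτ1 : ∀ l, τ (f l) = f (τ' l))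
    (hτ2 : ∀ x, ¬ x ∈ Set.range f → τ x = x) (hz : ∀ i j, z i j ≠ 0 ↔ i = τ' j) :
    IsMo (rho W) (mk hF W hf hrev z h1 h2) τ := by
  intro r c
  rw [rho_apply, M_mk]
  by_cases hr : r ∈ Set.range f <;> by_cases hc' : c ∈ Set.range f
  · obtain ⟨i, rfl⟩ := hr
    obtain ⟨j, rfl⟩ := hc'
    rw [emb_ff, hτ1, hz, hf.eq_iff]
  · obtain ⟨i, rfl⟩ := hr
    rw [emb_fo _ _ hc', hτ2 _ hc']
    constructor
    · intro h
      exact absurd rfl h
    · rintro rfl
      exact absurd ⟨i, rfl⟩ hc'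
  · obtain ⟨j, rfl⟩ := hc'
    rw [emb_of _ _ hr, hτ1]
    constructor
    · intro h
      exact absurd rfl h
    · rintro rfl
      exact absurd ⟨_, rfl⟩ hr
  · rw [emb_oo _ hr hc', hτ2 _ hc']
    by_cases h : r = c <;> simp [h]

theorem isMo_mk_one (hz : ∀ i j, z i j ≠ 0 ↔ i = j) : IsMo (rho W) (mk hF W hf hrev z h1 h2) 1 :=
  isMo_mk hF W hrev h1 h2 (τ' := 1) (fun _ => rfl) (fun _ _ => rfl) (by simpa using hz)

/-- An element with the right entries is given by the small matrix. -/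
theorem eq_mk {x : SU n F q} (hz : ∀ i j, W.M x (f i) (f j) = z i j)
    (hout : ∀ r c, (¬ r ∈ Set.range f ∨ ¬ c ∈ Set.range f) → W.M x r c = if r = c then 1 else 0) :
    x = mk hF W hf hrev z h1 h2 := by
  apply W.ext_M
  rw [M_mk]
  ext r c
  by_cases hr : r ∈ Set.range f <;> by_cases hc' : c ∈ Set.range f
  · obtain ⟨i, rfl⟩ := hr
    obtain ⟨j, rfl⟩ := hc'
    rw [emb_ff, hz]
  · obtain ⟨i, rfl⟩ := hr
    rw [emb_fo _ _ hc', hout _ _ (Or.inr hc'), if_neg]
    rintro rfl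
    exact hc' ⟨i, rfl⟩
  · obtain ⟨j, rfl⟩ := hc'
    rw [emb_of _ _ hr, hout _ _ (Or.inl hr), if_neg]
    rintro rfl
    exact hr ⟨j, rfl⟩
  · rw [emb_oo _ hr hc', hout _ _ (Or.inl hr)]

end

end Cfsg.Agent.Lib.SuBN.Emb
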