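import Cfsg.Agent.Lib.SuBN.Types

/-!
The last simple root of `SU_n`, and the root data.
-/

set_option autoImplicit false
set_option linter.unusedSectionVars false
set_option linter.unusedSimpArgs false

namespace Cfsg.Agent.Lib.SuBN.Last

open scoped Matrix
open Cfsg Cfsg.Agent.Lib.SpBN.Mat Cfsg.Agent.Lib.SpBN.RootGen
open Cfsg.Agent.Lib.Classical.Herm.Basic Cfsg.Agent.Lib.Classical.Herm.SU
open Cfsg.Agent.Lib.Classical.Herm.Subfield
open Cfsg.Agent.Lib.Fusion.PSU.Basis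
open Cfsg.Agent.Lib.SuBN.Frame Cfsg.Agent.Lib.SuBN.Emb Cfsg.Agent.Lib.SuBN.Small Cfsg.Agent.Lib.SuBN.Weyl
open Cfsg.Agent.Lib.SuBN.Types

variable {F : Type*} [Field F] [Fintype F] {q m : ℕ}

/-! ### Even degree -/

local notation "NE" => (2 * m + 2 + 0)
local notation "NO" => (2 * m + 2 + 1)

/-- The block of the last root in even degree. -/
def f2 (m : ℕ) : Fin 2 → Fin (2 * m + 2 + 0) := ![pm m 0, Fin.rev (pm m 0)]

theorem f2_mono : StrictMono (f2 m) := by
  rw [Fin.strictMono_iff_lt_succ]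
  intro l
  fin_cases l
  simp only [f2, pm, Fin.lt_def]
  simp [rev_val]
  omega

theorem f2_rev (l : Fin 2) : f2 m (Fin.rev l) = Fin.rev (f2 m l) := by
  fin_cases l <;> simp [f2]

theorem f2_0 : f2 m 0 = pm m 0 := rfl
theorem f2_1 : f2 m 1 = Fin.rev (pm m 0) := rfl

theorem f2_tau (l : Fin 2) : tL (m := m) (ε := 0) (f2 m l) = f2 m (Equiv.swap (0 : Fin 2) 1 l) := by
  fin_cases l
  · simp [tL, f2]
  · simp [tL, f2]

theorem f2_out {x : Fin NE} (hx : ¬ x ∈ Set.range (f2 m)) : tL x = x := by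
  have h0 : x ≠ pm m 0 := fun e => hx ⟨0, e.symm⟩
  have h1 : x ≠ Fin.rev (pm m 0) := fun e => hx ⟨1, e.symm⟩
  simp only [tL]
  rw [Equiv.swap_apply_of_ne_of_ne h0 h1]

theorem pm_rev0 : (Fin.rev (pm m 0)).val = (pm m 0).val + 1 := by
  simp only [pm, rev_val]
  omega

theorem inv_B {r c : Fin NE} (h : IsInv Fin.val (tL (m := m) (ε := 0)) r c) :
    r = pm m 0 ∧ c = Fin.rev (pm m 0) := by
  obtain ⟨h1, h2⟩ := inv_tL h
  have h3 := h.1
  refine ⟨Fin.ext ?_, Fin.ext ?_⟩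
  · simp only [pm]
    omega
  · simp only [pm, rev_val]
    omega

section Even

variable (hF : Fintype.card F = q ^ 2) (W : WB F q (2 * m + 2 + 0))

include hF

/-- A root element of the last root in even degree. -/
noncomputable def xB {t : F} (ht : t ^ q = -t) : SU NE F q :=
  mk hF W f2_mono.injective f2_rev (x2 t) (st_x2 hF ht) (det_x2 t)

/-- The reflection of the last root in even degree. -/
noncomputable def eB {w : F} (hw0 : w ≠ 0) (hw : w ^ q = -w) : SU NE F q :=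
  mk hF W f2_mono.injective f2_rev (e2 w) (st_e2 hF hw0 hw) (det_e2 hw0)

/-- The torus element of the last root in even degree. -/
noncomputable def hB {c : F} (hc0 : c ≠ 0) (hc : c ^ q = c) : SU NE F q :=
  mk hF W f2_mono.injective f2_rev (h2 c) (st_h2 hF hc0 hc) (det_h2 hc0)

theorem isMo_eB {w : F} (hw0 : w ≠ 0) (hw : w ^ q = -w) : IsMo (rho W) (eB hF W hw0 hw) tL :=
  isMo_mk hF W _ _ _ f2_tau (fun _ hx => f2_out hx) (e2_iff hw0)

theorem isMo_hB {c : F} (hc0 : c ≠ 0) (hc : c ^ q = c) : IsMo (rho W) (hB hF W hc0 hc) 1 :=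
  isMo_mk_one hF W _ _ _ (h2_iff hc0)

theorem xB_mem {t : F} (ht : t ^ q = -t) : xB hF W ht ∈ Xs (rho W) Fin.val Fin.val_injective tL := by
  refine mem_Xs_mk hF W f2_mono f2_rev _ _ (fun _ _ h => x2_low t h) (x2_diag t) ?_
  intro l l' h1 h2
  have e : l = 0 ∧ l' = 1 := by
    by_contra h3
    apply h2
    fin_cases l <;> fin_cases l' <;> simp_all [x2]
  obtain ⟨rfl, rfl⟩ := e
  exact inv_tL_ab

theorem xB_ab {t : F} (ht : t ^ q = -t) : W.M (xB hF W ht) (pm m 0) (Fin.rev (pm m 0)) = t := by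
  rw [xB, M_mk]
  show emb _ _ _ (f2 m 0) (f2 m 1) = t
  rw [emb_ff, x2_01]

theorem tr_of_isU {u : SU NE F q} (hu : IsU (rho W) Fin.val u) :
    (W.M u (pm m 0) (Fin.rev (pm m 0))) ^ q = - W.M u (pm m 0) (Fin.rev (pm m 0)) := by
  have h := link hF hu (pm_rev0 (m := m))
  rwa [Fin.rev_rev] at h

theorem xB_eq {x : SU NE F q} (hx : x ∈ Xs (rho W) Fin.val Fin.val_injective tL) :
    ∃ (t : F) (ht : t ^ q = -t), x = xB hF W ht := by
  have hinj := (f2_mono (m := m)).injective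
  refine ⟨_, tr_of_isU hF W hx.1, ?_⟩
  refine eq_mk hF W f2_rev (st_x2 hF (tr_of_isU hF W hx.1)) (det_x2 _) ?_ ?_
  · intro l l'
    by_cases h1 : l = l'
    · subst h1
      rw [x2_diag]
      exact hx.1.2 _
    by_cases h2 : l = 0 ∧ l' = 1
    · obtain ⟨rfl, rfl⟩ := h2
      rw [x2_01, f2_0, f2_1]
    have h3 : x2 (W.M x (pm m 0) (Fin.rev (pm m 0))) l l' = 0 := by
      fin_cases l <;> fin_cases l' <;> simp_all [x2]
    rw [h3]
    refine hx.2 _ _ (fun e => h1 (hinj e)) (fun hinv => ?_)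
    obtain ⟨e1, e2⟩ := inv_B hinv
    exact h2 ⟨hinj e1, hinj e2⟩
  · intro r c hout
    by_cases h1 : r = c
    · subst h1
      rw [if_pos rfl]
      exact hx.1.2 _
    · rw [if_neg h1]
      refine hx.2 _ _ h1 (fun hinv => ?_)
      obtain ⟨e1, e2⟩ := inv_B hinv
      rcases hout with h | h
      · exact h ⟨0, e1.symm⟩
      · exact h ⟨1, e2.symm⟩

theorem dec_B {u : SU NE F q} (hu : IsU (rho W) Fin.val u) :
    ∃ a ∈ Ys (rho W) Fin.val Fin.val_injective tL, ∃ x ∈ Xs (rho W) Fin.val Fin.val_injective tL,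
      u = a * x := by
  have ht := tr_of_isU hF W hu
  set t := W.M u (pm m 0) (Fin.rev (pm m 0)) with htd
  have hx := xB_mem hF W ht
  set x := xB hF W ht with hxdef
  have hu' : IsU (rho W) Fin.val (u * x⁻¹) :=
    (Uu (rho W) Fin.val Fin.val_injective).mul_mem hu ((Uu (rho W) Fin.val Fin.val_injective).inv_mem hx.1)
  refine ⟨u * x⁻¹, ⟨hu', fun r c hinv => ?_⟩, x, hx, by group⟩
  obtain ⟨rfl, rfl⟩ := inv_B hinv
  have h1 : W.M (u * x⁻¹) (pm m 0) (Fin.rev (pm m 0)) = W.M u (pm m 0) (Fin.rev (pm m 0)) +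
      W.M x⁻¹ (pm m 0) (Fin.rev (pm m 0)) :=
    consec_mul (φ := rho W) Fin.val_injective hu
      ((Uu (rho W) Fin.val Fin.val_injective).inv_mem hx.1) pm_rev0
  have h2 : W.M x⁻¹ (pm m 0) (Fin.rev (pm m 0)) = - W.M x (pm m 0) (Fin.rev (pm m 0)) :=
    inv_consec (φ := rho W) Fin.val_injective hx.1 pm_rev0
  show W.M (u * x⁻¹) (pm m 0) (Fin.rev (pm m 0)) = 0
  rw [h1, h2, hxdef, xB_ab, ← htd]
  ring

theorem sl2_B {w : F} (hw0 : w ≠ 0) (hw : w ^ q = -w) {x : SU NE F q}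
    (hx : x ∈ Xs (rho W) Fin.val Fin.val_injective tL) :
    eB hF W hw0 hw * x * (eB hF W hw0 hw)⁻¹ = 1 ∨
      ∃ x₁ ∈ Xs (rho W) Fin.val Fin.val_injective tL, ∃ h, IsMo (rho W) h 1 ∧
      ∃ x₂ ∈ Xs (rho W) Fin.val Fin.val_injective tL,
        eB hF W hw0 hw * x * (eB hF W hw0 hw)⁻¹ = x₁ * eB hF W hw0 hw * h * x₂ := by
  obtain ⟨t, ht, hxe⟩ := xB_eq hF W hx
  by_cases h0 : t = 0
  · left
    have h1 : x = 1 := by
      apply W.ext_M
      rw [hxe, xB, M_mk, h0, x2_one, emb_one, W.M_one]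
    rw [h1]
    group
  · right
    have e1 : (-w ^ 2 * t⁻¹) ^ q = -(-w ^ 2 * t⁻¹) := by
      rw [mul_pow, pow_q_neg hF, inv_pow, ht, ← pow_mul, mul_comm 2 q, pow_mul, hw, inv_neg]
      ring
    have hq2 : (t * w⁻¹) ^ q = t * w⁻¹ := by
      rw [mul_pow, inv_pow, ht, hw, inv_neg]
      ring
    refine ⟨xB hF W e1, xB_mem hF W e1, hB hF W (mul_ne_zero h0 (inv_ne_zero hw0)) hq2,
      isMo_hB hF W _ hq2, xB hF W e1, xB_mem hF W e1, ?_⟩
    rw [mul_inv_eq_iff_eq_mul]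
    apply W.ext_M
    rw [hxe]
    simp only [W.M_mul, xB, eB, hB, M_mk, ← emb_mul]
    rw [rel2 h0 hw0]

theorem ne_B {w : F} (hw0 : w ≠ 0) (hw : w ^ q = -w) : ∃ x ∈ Xs (rho W) Fin.val Fin.val_injective tL, ∃ r c,
    IsInv Fin.val (tL (m := m) (ε := 0)) r c ∧ rho W x r c ≠ 0 :=
  ⟨xB hF W hw, xB_mem hF W hw, pm m 0, Fin.rev (pm m 0), inv_tL_ab, by
    rw [rho_apply, xB_ab]
    exact hw0⟩

end Even

/-! ### Odd degree -/

/-- The middle position. -/
def md (m : ℕ) : Fin (2 * m + 2 + 1) := ⟨m + 1, by omega⟩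

theorem md_rev : Fin.rev (md m) = md m := by
  apply Fin.ext
  simp only [md, rev_val]
  omega

/-- The block of the last root in odd degree. -/
def f3 (m : ℕ) : Fin 3 → Fin (2 * m + 2 + 1) := ![pm m 1, md m, Fin.rev (pm m 1)]

theorem f3_0 : f3 m 0 = pm m 1 := rfl
theorem f3_1 : f3 m 1 = md m := rfl
theorem f3_2 : f3 m 2 = Fin.rev (pm m 1) := rfl

theorem f3_mono : StrictMono (f3 m) := by
  rw [Fin.strictMono_iff_lt_succ]
  intro l
  fin_cases l
  · show f3 m 0 < f3 m 1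
    simp only [f3_0, f3_1, pm, md, Fin.lt_def]
    omega
  · show f3 m 1 < f3 m 2
    simp only [f3_1, f3_2, pm, md, Fin.lt_def, rev_val]
    omega

theorem f3_rev (l : Fin 3) : f3 m (Fin.rev l) = Fin.rev (f3 m l) := by
  fin_cases l
  · show f3 m 2 = Fin.rev (f3 m 0)
    rfl
  · show f3 m 1 = Fin.rev (f3 m 1)
    rw [f3_1, md_rev]
  · show f3 m 0 = Fin.rev (f3 m 2)
    rw [f3_0, f3_2, Fin.rev_rev]

theorem f3_tau (l : Fin 3) : tL (m := m) (ε := 1) (f3 m l) = f3 m (Equiv.swap (0 : Fin 3) 2 l) := by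
  fin_cases l
  · show tL (f3 m 0) = f3 m (Equiv.swap (0 : Fin 3) 2 0)
    rw [Equiv.swap_apply_left, f3_0, f3_2]
    simp [tL]
  · show tL (f3 m 1) = f3 m (Equiv.swap (0 : Fin 3) 2 1)
    have e : Equiv.swap (0 : Fin 3) 2 1 = 1 := by decide
    rw [e, f3_1]
    apply Fin.ext
    simp only [tL_val, md]
    split_ifs <;> omega
  · show tL (f3 m 2) = f3 m (Equiv.swap (0 : Fin 3) 2 2)
    rw [Equiv.swap_apply_right, f3_0, f3_2]
    simp [tL]

theorem f3_out {x : Fin NO} (hx : ¬ x ∈ Set.range (f3 m)) : tL x = x := by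
  have h0 : x ≠ pm m 1 := fun e => hx ⟨0, e.symm⟩
  have h1 : x ≠ Fin.rev (pm m 1) := fun e => hx ⟨2, e.symm⟩
  simp only [tL]
  rw [Equiv.swap_apply_of_ne_of_ne h0 h1]

theorem am_v : (md m).val = (pm m 1).val + 1 := rfl

theorem mb_v : (Fin.rev (pm m 1)).val = (md m).val + 1 := by
  simp only [pm, md, rev_val]
  omega

theorem inv_am : IsInv Fin.val (tL (m := m) (ε := 1)) (pm m 1) (md m) := by
  refine ⟨by simp [pm, md], ?_⟩
  simp only [tL_val, pm, md]
  split_ifs <;> omega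

theorem inv_mb : IsInv Fin.val (tL (m := m) (ε := 1)) (md m) (Fin.rev (pm m 1)) := by
  refine ⟨by simp only [pm, md, rev_val]; omega, ?_⟩
  simp only [tL_val, pm, md, rev_val]
  split_ifs <;> omega

theorem inv_C {r c : Fin NO} (h : IsInv Fin.val (tL (m := m) (ε := 1)) r c) :
    (r = pm m 1 ∧ c = md m) ∨ (r = md m ∧ c = Fin.rev (pm m 1)) ∨ (r = pm m 1 ∧ c = Fin.rev (pm m 1)) := by
  obtain ⟨h1, h2⟩ := inv_tL h
  have h3 := h.1
  simp only [Fin.ext_iff, pm, md, rev_val]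
  omega

section Odd

variable (hF : Fintype.card F = q ^ 2) (W : WB F q (2 * m + 2 + 1))

/-- The entry at the two extreme positions of the last root of a product. -/
theorem triple_mul {v w : SU NO F q} (hv : IsU (rho W) Fin.val v) (hw : IsU (rho W) Fin.val w) :
    W.M (v * w) (pm m 1) (Fin.rev (pm m 1)) = W.M w (pm m 1) (Fin.rev (pm m 1)) +
      W.M v (pm m 1) (md m) * W.M w (md m) (Fin.rev (pm m 1)) + W.M v (pm m 1) (Fin.rev (pm m 1)) := by
  have hne1 : pm m 1 ≠ md m := fun e => by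
    have := congrArg Fin.val e
    simp [pm, md] at this
  have hne2 : pm m 1 ≠ Fin.rev (pm m 1) := fun e => by
    have := congrArg Fin.val e
    simp only [pm, rev_val] at this
    omega
  have hne3 : md m ≠ Fin.rev (pm m 1) := fun e => by
    have := congrArg Fin.val e
    simp only [pm, md, rev_val] at this
    omega
  rw [W.M_mul, Matrix.mul_apply, ← Finset.sum_subset (Finset.subset_univ {pm m 1, md m, Fin.rev (pm m 1)})]
  · rw [Finset.sum_insert (by simp [hne1, hne2]), Finset.sum_insert (by simp [hne3]), Finset.sum_singleton]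
    have h1 : W.M v (pm m 1) (pm m 1) = 1 := hv.2 _
    have h2 : W.M w (Fin.rev (pm m 1)) (Fin.rev (pm m 1)) = 1 := hw.2 _
    rw [h1, h2]
    ring
  · intro y _ hy
    simp only [Finset.mem_insert, Finset.mem_singleton, not_or, Fin.ext_iff, pm, md, rev_val] at hy
    by_cases h1 : y.val < m
    · have h2 : W.M v (pm m 1) y = 0 := hv.1 _ _ h1
      rw [h2, zero_mul]
    · have h3 : W.M w y (Fin.rev (pm m 1)) = 0 := hw.1 _ _ (by
        simp only [pm, rev_val]
        omega)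
      rw [h3, mul_zero]

include hF

/-- A root element of the last root in odd degree. -/
noncomputable def xC {t s : F} (h : s + s ^ q + t * t ^ q = 0) : SU NO F q :=
  mk hF W f3_mono.injective f3_rev (x3 q t s) (st_x3 hF h) (det_x3 t s)

/-- The reflection of the last root in odd degree. -/
noncomputable def eC : SU NO F q :=
  mk hF W f3_mono.injective f3_rev e3 (st_e3 hF) det_e3

/-- The torus element of the last root in odd degree. -/
noncomputable def hC {s : F} (hs : s ≠ 0) : SU NO F q :=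
  mk hF W f3_mono.injective f3_rev (h3 q s) (st_h3 hF hs) (det_h3 hs (pow_ne_zero _ hs))

theorem isMo_eC : IsMo (rho W) (eC hF W) tL :=
  isMo_mk hF W _ _ _ f3_tau (fun _ hx => f3_out hx) e3_iff

theorem isMo_hC {s : F} (hs : s ≠ 0) : IsMo (rho W) (hC hF W hs) 1 :=
  isMo_mk_one hF W _ _ _ (h3_iff hs (pow_ne_zero _ hs))

theorem xC_mem {t s : F} (h : s + s ^ q + t * t ^ q = 0) :
    xC hF W h ∈ Xs (rho W) Fin.val Fin.val_injective tL := by
  refine mem_Xs_mk hF W f3_mono f3_rev _ _ (fun _ _ h => x3_low t s h) (x3_diag t s) ?_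
  intro l l' h1 h2
  rcases lt_or_gt_of_ne h1 with h3 | h3
  · have h4 : (l = 0 ∧ l' = 1) ∨ (l = 1 ∧ l' = 2) ∨ (l = 0 ∧ l' = 2) := by
      clear h1 h2
      revert l l'
      decide
    rcases h4 with ⟨rfl, rfl⟩ | ⟨rfl, rfl⟩ | ⟨rfl, rfl⟩
    · exact inv_am
    · exact inv_mb
    · exact inv_tL_ab
  · exact absurd (x3_low t s h3) h2

theorem xC_01 {t s : F} (h : s + s ^ q + t * t ^ q = 0) : W.M (xC hF W h) (pm m 1) (md m) = t := by
  rw [xC, M_mk]
  show emb _ _ _ (f3 m 0) (f3 m 1) = t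
  rw [emb_ff, x3_01]

theorem xC_02 {t s : F} (h : s + s ^ q + t * t ^ q = 0) :
    W.M (xC hF W h) (pm m 1) (Fin.rev (pm m 1)) = s := by
  rw [xC, M_mk]
  show emb _ _ _ (f3 m 0) (f3 m 2) = s
  rw [emb_ff, x3_02]

theorem xC_12 {t s : F} (h : s + s ^ q + t * t ^ q = 0) :
    W.M (xC hF W h) (md m) (Fin.rev (pm m 1)) = -t ^ q := by
  rw [xC, M_mk]
  show emb _ _ _ (f3 m 1) (f3 m 2) = -t ^ q
  rw [emb_ff, x3_12]

theorem rel_of_isU {u : SU NO F q} (hu : IsU (rho W) Fin.val u) :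
    W.M u (pm m 1) (Fin.rev (pm m 1)) + (W.M u (pm m 1) (Fin.rev (pm m 1))) ^ q +
      W.M u (pm m 1) (md m) * (W.M u (pm m 1) (md m)) ^ q = 0 := by
  have h1 := triple_mul W hu ((Uu (rho W) Fin.val Fin.val_injective).inv_mem hu)
  rw [mul_inv_cancel, W.M_one, Matrix.one_apply_ne (by
    intro e
    have := congrArg Fin.val e
    simp only [pm, rev_val] at this
    omega), M_inv hF, M_inv hF, Fin.rev_rev, md_rev] at h1
  linear_combination -h1

theorem xC_eq {x : SU NO F q} (hx : x ∈ Xs (rho W) Fin.val Fin.val_injective tL) :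
    ∃ (t s : F) (h : s + s ^ q + t * t ^ q = 0), x = xC hF W h := by
  have hinj := (f3_mono (m := m)).injective
  refine ⟨_, _, rel_of_isU hF W hx.1, ?_⟩
  refine eq_mk hF W f3_rev (st_x3 hF (rel_of_isU hF W hx.1)) (det_x3 _ _) ?_ ?_
  · intro l l'
    by_cases h1 : l = l'
    · subst h1
      rw [x3_diag]
      exact hx.1.2 _
    rcases lt_or_gt_of_ne h1 with h3 | h3
    · have h4 : (l = 0 ∧ l' = 1) ∨ (l = 1 ∧ l' = 2) ∨ (l = 0 ∧ l' = 2) := by
        revert l l'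
        decide
      rcases h4 with ⟨rfl, rfl⟩ | ⟨rfl, rfl⟩ | ⟨rfl, rfl⟩
      · rw [x3_01, f3_0, f3_1]
      · rw [x3_12, f3_1, f3_2]
        have h5 := link1 hF hx.1 (am_v (m := m))
        rwa [md_rev] at h5
      · rw [x3_02, f3_0, f3_2]
    · rw [x3_low _ _ h3]
      exact hx.1.1 _ _ (f3_mono h3)
  · intro r c hout
    by_cases h1 : r = c
    · subst h1
      rw [if_pos rfl]
      exact hx.1.2 _
    · rw [if_neg h1]
      refine hx.2 _ _ h1 (fun hinv => ?_)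
      rcases inv_C hinv with ⟨e1, e2⟩ | ⟨e1, e2⟩ | ⟨e1, e2⟩
      · rcases hout with h | h
        · exact h ⟨0, e1.symm⟩
        · exact h ⟨1, e2.symm⟩
      · rcases hout with h | h
        · exact h ⟨1, e1.symm⟩
        · exact h ⟨2, e2.symm⟩
      · rcases hout with h | h
        · exact h ⟨0, e1.symm⟩
        · exact h ⟨2, e2.symm⟩

theorem dec_C {u : SU NO F q} (hu : IsU (rho W) Fin.val u) :
    ∃ a ∈ Ys (rho W) Fin.val Fin.val_injective tL, ∃ x ∈ Xs (rho W) Fin.val Fin.val_injective tL,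
      u = a * x := by
  have ht := rel_of_isU hF W hu
  have hx := xC_mem hF W ht
  set x := xC hF W ht with hxdef
  have hu' : IsU (rho W) Fin.val (u * x⁻¹) :=
    (Uu (rho W) Fin.val Fin.val_injective).mul_mem hu ((Uu (rho W) Fin.val Fin.val_injective).inv_mem hx.1)
  have h0 : W.M (u * x⁻¹) (pm m 1) (md m) = 0 := by
    have h1 : W.M (u * x⁻¹) (pm m 1) (md m) = W.M u (pm m 1) (md m) + W.M x⁻¹ (pm m 1) (md m) :=
      consec_mul (φ := rho W) Fin.val_injective hu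
        ((Uu (rho W) Fin.val Fin.val_injective).inv_mem hx.1) am_v
    have h2 : W.M x⁻¹ (pm m 1) (md m) = - W.M x (pm m 1) (md m) :=
      inv_consec (φ := rho W) Fin.val_injective hx.1 am_v
    rw [h1, h2, hxdef, xC_01]
    ring
  have h0' : W.M (u * x⁻¹) (md m) (Fin.rev (pm m 1)) = 0 := by
    have h3 := link0 hF hu' (am_v (m := m)) h0
    rwa [md_rev] at h3
  have h00 : W.M (u * x⁻¹) (pm m 1) (Fin.rev (pm m 1)) = 0 := by
    have h3 := triple_mul W hu' hx.1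
    have e : u * x⁻¹ * x = u := by group
    rw [e, h0, hxdef, xC_02] at h3
    linear_combination -h3
  refine ⟨u * x⁻¹, ⟨hu', fun r c hinv => ?_⟩, x, hx, by group⟩
  rcases inv_C hinv with ⟨rfl, rfl⟩ | ⟨rfl, rfl⟩ | ⟨rfl, rfl⟩
  · exact h0
  · exact h0'
  · exact h00

theorem sl2_C {x : SU NO F q} (hx : x ∈ Xs (rho W) Fin.val Fin.val_injective tL) :
    eC hF W * x * (eC hF W)⁻¹ = 1 ∨
      ∃ x₁ ∈ Xs (rho W) Fin.val Fin.val_injective tL, ∃ h, IsMo (rho W) h 1 ∧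
      ∃ x₂ ∈ Xs (rho W) Fin.val Fin.val_injective tL,
        eC hF W * x * (eC hF W)⁻¹ = x₁ * eC hF W * h * x₂ := by
  obtain ⟨t, s, h, hxe⟩ := xC_eq hF W hx
  by_cases h0 : s = 0
  · left
    have h1 : x = 1 := by
      apply W.ext_M
      have h2 : t = 0 := by
        rw [h0, zero_pow_q hF, add_zero, zero_add] at h
        rcases mul_eq_zero.1 h with h3 | h3
        · exact h3
        · exact (pow_eq_zero_iff (q_ne_zero hF)).1 h3
      rw [hxe, xC, M_mk, h0, h2, x3_one hF, emb_one, W.M_one]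
    rw [h1]
    group
  · right
    have hq : s ^ q ≠ 0 := pow_ne_zero _ h0
    have hss := pow_q_pow_q hF s
    have htt := pow_q_pow_q hF t
    have e1 : s⁻¹ + (s⁻¹) ^ q + (-t * (s ^ q)⁻¹) * (-t * (s ^ q)⁻¹) ^ q = 0 := by
      rw [mul_pow (-t), pow_q_neg hF, inv_pow, inv_pow, hss]
      field_simp
      linear_combination h
    have e2 : s⁻¹ + (s⁻¹) ^ q + (-t * s⁻¹) * (-t * s⁻¹) ^ q = 0 := by
      rw [mul_pow (-t), pow_q_neg hF, inv_pow]
      field_simp
      linear_combination h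
    refine ⟨xC hF W e1, xC_mem hF W e1, hC hF W h0, isMo_hC hF W h0, xC hF W e2, xC_mem hF W e2, ?_⟩
    rw [mul_inv_eq_iff_eq_mul]
    apply W.ext_M
    rw [hxe]
    simp only [W.M_mul, xC, eC, hC, M_mk, ← emb_mul]
    rw [rel3 hF h0 h]

theorem ne_C {w : F} (hw0 : w ≠ 0) (hw : w ^ q = -w) : ∃ x ∈ Xs (rho W) Fin.val Fin.val_injective tL, ∃ r c,
    IsInv Fin.val (tL (m := m) (ε := 1)) r c ∧ rho W x r c ≠ 0 := by
  have h : w + w ^ q + (0 : F) * (0 : F) ^ q = 0 := by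
    rw [hw]
    ring
  exact ⟨xC hF W h, xC_mem hF W h, pm m 1, Fin.rev (pm m 1), inv_tL_ab, by
    rw [rho_apply, xC_02]
    exact hw0⟩

end Odd

end Cfsg.Agent.Lib.SuBN.Last
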