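import Cfsg.Agent.Lib.SuBN.Emb

/-!
The small unitary matrices of the simple roots of `SU_n`.
-/

set_option autoImplicit false
set_option linter.unusedSectionVars false
set_option linter.unusedSimpArgs false

namespace Cfsg.Agent.Lib.SuBN.Small

open scoped Matrix
open Cfsg Cfsg.Agent.Lib.SuBN.Frame Cfsg.Agent.Lib.Classical.Herm.Basic

variable {F : Type*} [Field F] [Fintype F] {q : ℕ}

@[simp] theorem rev40 : Fin.rev (0 : Fin 4) = 3 := rfl
@[simp] theorem rev41 : Fin.rev (1 : Fin 4) = 2 := rfl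
@[simp] theorem rev42 : Fin.rev (2 : Fin 4) = 1 := rfl
@[simp] theorem rev43 : Fin.rev (3 : Fin 4) = 0 := rfl
@[simp] theorem rev20 : Fin.rev (0 : Fin 2) = 1 := rfl
@[simp] theorem rev21 : Fin.rev (1 : Fin 2) = 0 := rfl
@[simp] theorem rev30 : Fin.rev (0 : Fin 3) = 2 := rfl
@[simp] theorem rev31 : Fin.rev (1 : Fin 3) = 1 := rfl
@[simp] theorem rev32 : Fin.rev (2 : Fin 3) = 0 := rfl

/-! ### Blocks of size four -/

/-- The root element in a block of size four. -/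
def x4 (q : ℕ) (t : F) : Matrix (Fin 4) (Fin 4) F := !![1,t,0,0; 0,1,0,0; 0,0,1,-t^q; 0,0,0,1]
/-- The reflection in a block of size four. -/
def e4 : Matrix (Fin 4) (Fin 4) F := !![0,1,0,0; -1,0,0,0; 0,0,0,-1; 0,0,1,0]
/-- The torus element in a block of size four. -/
noncomputable def h4 (q : ℕ) (t : F) : Matrix (Fin 4) (Fin 4) F :=
  !![t,0,0,0; 0,t⁻¹,0,0; 0,0,t^q,0; 0,0,0,(t^q)⁻¹]

section
variable (hF : Fintype.card F = q ^ 2)
include hF

theorem st_x4 (t : F) : stA q (x4 q t) * x4 q t = 1 := by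
  have h0 := zero_pow_q hF
  have h1 := pow_q_pow_q hF t
  have h2 := pow_q_neg hF (t ^ q)
  ext i j
  fin_cases i <;> fin_cases j <;>
    simp [stA_apply, x4, Matrix.mul_apply, Fin.sum_univ_four, h0, h1, h2]

theorem st_e4 : stA q (e4 : Matrix (Fin 4) (Fin 4) F) * e4 = 1 := by
  have h0 := zero_pow_q hF
  have h2 := pow_q_neg hF (1 : F)
  ext i j
  fin_cases i <;> fin_cases j <;>
    simp [stA_apply, e4, Matrix.mul_apply, Fin.sum_univ_four, h0, h2]

theorem st_h4 {t : F} (ht : t ≠ 0) : stA q (h4 q t) * h4 q t = 1 := by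
  have h0 := zero_pow_q hF
  have h1 := pow_q_pow_q hF t
  have h2 : (t ^ q) ≠ 0 := pow_ne_zero _ ht
  ext i j
  fin_cases i <;> fin_cases j <;>
    simp [stA_apply, h4, Matrix.mul_apply, Fin.sum_univ_four, h0, h1, ht, h2]

end

theorem det_x4 (t : F) : (x4 q t).det = 1 := by
  rw [Matrix.det_of_upperTriangular]
  · simp [x4, Fin.prod_univ_four]
  · intro i j hij
    fin_cases i <;> fin_cases j <;> simp_all [x4]

theorem det_e4 : (e4 : Matrix (Fin 4) (Fin 4) F).det = 1 := by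
  simp [e4, Matrix.det_succ_row_zero, Fin.sum_univ_succ, Fin.succAbove]

theorem det_h4 {t : F} (ht : t ≠ 0) (hq : t ^ q ≠ 0) : (h4 q t).det = 1 := by
  rw [Matrix.det_of_upperTriangular]
  · simp [h4, Fin.prod_univ_four, ht, hq]
  · intro i j hij
    fin_cases i <;> fin_cases j <;> simp_all [h4]

theorem rel4 {t : F} (ht : t ≠ 0) (hF : Fintype.card F = q ^ 2) :
    e4 * x4 q t = x4 q (-t⁻¹) * e4 * h4 q t * x4 q (-t⁻¹) * e4 := by
  have h2 : (t ^ q) ≠ 0 := pow_ne_zero _ ht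
  have h3 : (-t⁻¹) ^ q = - (t ^ q)⁻¹ := by
    rw [pow_q_neg hF, inv_pow]
  ext i j
  fin_cases i <;> fin_cases j <;>
    simp [e4, x4, h4, Matrix.mul_apply, Fin.sum_univ_four, ht, h2, h3]

theorem x4_diag (t : F) (l : Fin 4) : x4 q t l l = 1 := by
  fin_cases l <;> simp [x4]

theorem x4_01 (t : F) : x4 q t 0 1 = t := by simp [x4]

theorem x4_23 (t : F) : x4 q t 2 3 = -t ^ q := by simp [x4]

theorem x4_zero (t : F) {l l' : Fin 4} (h1 : l ≠ l') (h2 : ¬ (l = 0 ∧ l' = 1)) (h3 : ¬ (l = 2 ∧ l' = 3)) :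
    x4 q t l l' = 0 := by
  fin_cases l <;> fin_cases l' <;> simp_all [x4]

theorem x4_low (t : F) {l l' : Fin 4} (h : l' < l) : x4 q t l l' = 0 := by
  refine x4_zero t h.ne' ?_ ?_
  · rintro ⟨rfl, rfl⟩
    exact absurd h (by decide)
  · rintro ⟨rfl, rfl⟩
    exact absurd h (by decide)

theorem x4_one (hF : Fintype.card F = q ^ 2) : x4 q (0 : F) = 1 := by
  have h0 := zero_pow_q hF
  ext i j
  fin_cases i <;> fin_cases j <;> simp [x4, h0]

theorem e4_iff (i j : Fin 4) : (e4 : Matrix (Fin 4) (Fin 4) F) i j ≠ 0 ↔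
    i = (Equiv.swap (0 : Fin 4) 1 * Equiv.swap (2 : Fin 4) 3) j := by
  fin_cases i <;> fin_cases j <;> simp [e4, Equiv.swap_apply_def] <;> decide

theorem h4_iff {t : F} (ht : t ≠ 0) (hq : t ^ q ≠ 0) (i j : Fin 4) : (h4 q t) i j ≠ 0 ↔ i = j := by
  fin_cases i <;> fin_cases j <;> simp [h4, ht, hq]

/-! ### Blocks of size two -/

/-- The root element in a block of size two. -/
def x2 (t : F) : Matrix (Fin 2) (Fin 2) F := !![1,t; 0,1]
/-- The reflection in a block of size two. -/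
noncomputable def e2 (w : F) : Matrix (Fin 2) (Fin 2) F := !![0,w; -w⁻¹,0]
/-- The torus element in a block of size two. -/
noncomputable def h2 (c : F) : Matrix (Fin 2) (Fin 2) F := !![c,0; 0,c⁻¹]

section
variable (hF : Fintype.card F = q ^ 2)
include hF

theorem st_x2 {t : F} (ht : t ^ q = -t) : stA q (x2 t) * x2 t = 1 := by
  have h0 := zero_pow_q hF
  ext i j
  fin_cases i <;> fin_cases j <;>
    simp [stA_apply, x2, Matrix.mul_apply, Fin.sum_univ_two, h0, ht]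

theorem st_e2 {w : F} (hw0 : w ≠ 0) (hw : w ^ q = -w) : stA q (e2 w) * e2 w = 1 := by
  have h0 := zero_pow_q hF
  have h1 : (w⁻¹) ^ q = - w⁻¹ := by rw [inv_pow, hw, inv_neg]
  have h2 := pow_q_neg hF (w⁻¹)
  ext i j
  fin_cases i <;> fin_cases j <;>
    simp [stA_apply, e2, Matrix.mul_apply, Fin.sum_univ_two, h0, hw, h1, h2, hw0]

theorem st_h2 {c : F} (hc0 : c ≠ 0) (hc : c ^ q = c) : stA q (h2 c) * h2 c = 1 := by
  have h0 := zero_pow_q hF
  ext i j
  fin_cases i <;> fin_cases j <;>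
    simp [stA_apply, h2, Matrix.mul_apply, Fin.sum_univ_two, h0, hc, hc0]

end

theorem det_x2 (t : F) : (x2 t).det = 1 := by simp [x2, Matrix.det_fin_two]

theorem det_e2 {w : F} (hw0 : w ≠ 0) : (e2 w).det = 1 := by simp [e2, Matrix.det_fin_two, hw0]

theorem det_h2 {c : F} (hc0 : c ≠ 0) : (h2 c).det = 1 := by simp [h2, Matrix.det_fin_two, hc0]

theorem rel2 {t w : F} (ht : t ≠ 0) (hw : w ≠ 0) :
    e2 w * x2 t = x2 (-w ^ 2 * t⁻¹) * e2 w * h2 (t * w⁻¹) * x2 (-w ^ 2 * t⁻¹) * e2 w := by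
  ext i j
  fin_cases i <;> fin_cases j <;>
    simp [e2, x2, h2, Matrix.mul_apply, Fin.sum_univ_two] <;> field_simp <;> (try ring) <;> (try simp)

theorem x2_diag (t : F) (l : Fin 2) : x2 t l l = 1 := by
  fin_cases l <;> simp [x2]

theorem x2_01 (t : F) : x2 t 0 1 = t := by simp [x2]

theorem x2_low (t : F) {l l' : Fin 2} (h : l' < l) : x2 t l l' = 0 := by
  fin_cases l <;> fin_cases l' <;> simp_all [x2]

theorem x2_one : x2 (0 : F) = 1 := by
  ext i j
  fin_cases i <;> fin_cases j <;> simp [x2]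

theorem e2_iff {w : F} (hw : w ≠ 0) (i j : Fin 2) : (e2 w) i j ≠ 0 ↔ i = Equiv.swap (0 : Fin 2) 1 j := by
  fin_cases i <;> fin_cases j <;> simp [e2, Equiv.swap_apply_def, hw]

theorem h2_iff {c : F} (hc : c ≠ 0) (i j : Fin 2) : (h2 c) i j ≠ 0 ↔ i = j := by
  fin_cases i <;> fin_cases j <;> simp [h2, hc]

/-! ### Blocks of size three -/

/-- The root element in a block of size three. -/
def x3 (q : ℕ) (t s : F) : Matrix (Fin 3) (Fin 3) F := !![1,t,s; 0,1,-t^q; 0,0,1]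
/-- The reflection in a block of size three. -/
def e3 : Matrix (Fin 3) (Fin 3) F := !![0,0,1; 0,-1,0; 1,0,0]
/-- The torus element in a block of size three. -/
noncomputable def h3 (q : ℕ) (s : F) : Matrix (Fin 3) (Fin 3) F :=
  !![s,0,0; 0,s^q*s⁻¹,0; 0,0,(s^q)⁻¹]

section
variable (hF : Fintype.card F = q ^ 2)
include hF

theorem st_x3 {t s : F} (h : s + s ^ q + t * t ^ q = 0) : stA q (x3 q t s) * x3 q t s = 1 := by
  have h0 := zero_pow_q hF
  have h1 := pow_q_pow_q hF t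
  have h2 := pow_q_neg hF (t ^ q)
  ext i j
  fin_cases i <;> fin_cases j <;>
    simp [stA_apply, x3, Matrix.mul_apply, Fin.sum_univ_three, h0, h1, h2]
  linear_combination h

theorem st_e3 : stA q (e3 : Matrix (Fin 3) (Fin 3) F) * e3 = 1 := by
  have h0 := zero_pow_q hF
  have h2 := pow_q_neg hF (1 : F)
  ext i j
  fin_cases i <;> fin_cases j <;>
    simp [stA_apply, e3, Matrix.mul_apply, Fin.sum_univ_three, h0, h2]

theorem st_h3 {s : F} (hs : s ≠ 0) : stA q (h3 q s) * h3 q s = 1 := by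
  have h0 := zero_pow_q hF
  have h1 := pow_q_pow_q hF s
  have h2 : (s ^ q) ≠ 0 := pow_ne_zero _ hs
  ext i j
  fin_cases i <;> fin_cases j <;>
    simp [stA_apply, h3, Matrix.mul_apply, Fin.sum_univ_three, h0, h1, hs, h2, mul_pow, inv_pow] <;>
    field_simp

end

theorem det_x3 (t s : F) : (x3 q t s).det = 1 := by
  rw [Matrix.det_fin_three]
  simp [x3]

theorem det_e3 : (e3 : Matrix (Fin 3) (Fin 3) F).det = 1 := by
  rw [Matrix.det_fin_three]
  simp [e3]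

theorem det_h3 {s : F} (hs : s ≠ 0) (hq : s ^ q ≠ 0) : (h3 q s).det = 1 := by
  rw [Matrix.det_fin_three]
  simp [h3]
  field_simp

theorem rel3 (hF : Fintype.card F = q ^ 2) {t s : F} (hs : s ≠ 0) (h : s + s ^ q + t * t ^ q = 0) :
    e3 * x3 q t s = x3 q (-t * (s ^ q)⁻¹) s⁻¹ * e3 * h3 q s * x3 q (-t * s⁻¹) s⁻¹ * e3 := by
  have h2 : (s ^ q) ≠ 0 := pow_ne_zero _ hs
  have h1 := pow_q_pow_q hF s
  have e1 : -(-t * (s ^ q)⁻¹) ^ q = t ^ q * s⁻¹ := by
    rw [mul_pow, pow_q_neg hF, inv_pow, h1]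
    ring
  have e2 : -(-t * s⁻¹) ^ q = t ^ q * (s ^ q)⁻¹ := by
    rw [mul_pow, pow_q_neg hF, inv_pow]
    ring
  have X1 : x3 q (-t * (s ^ q)⁻¹) s⁻¹ = !![1, -t * (s ^ q)⁻¹, s⁻¹; 0, 1, t ^ q * s⁻¹; 0, 0, 1] := by
    simp only [x3, e1]
  have X2 : x3 q (-t * s⁻¹) s⁻¹ = !![1, -t * s⁻¹, s⁻¹; 0, 1, t ^ q * (s ^ q)⁻¹; 0, 0, 1] := by
    simp only [x3, e2]
  rw [X1, X2]
  ext i j
  fin_cases i <;> fin_cases j <;>
    simp [e3, x3, h3, Matrix.mul_apply, Fin.sum_univ_three, hs, h2] <;> field_simp <;>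
    first | ring1 | linear_combination -h

theorem x3_diag (t s : F) (l : Fin 3) : x3 q t s l l = 1 := by
  fin_cases l <;> simp [x3]

theorem x3_01 (t s : F) : x3 q t s 0 1 = t := by simp [x3]
theorem x3_12 (t s : F) : x3 q t s 1 2 = -t ^ q := by simp [x3]
theorem x3_02 (t s : F) : x3 q t s 0 2 = s := by simp [x3]

theorem x3_low (t s : F) {l l' : Fin 3} (h : l' < l) : x3 q t s l l' = 0 := by
  fin_cases l <;> fin_cases l' <;> simp_all [x3]

theorem x3_one (hF : Fintype.card F = q ^ 2) : x3 q (0 : F) 0 = 1 := by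
  have h0 := zero_pow_q hF
  ext i j
  fin_cases i <;> fin_cases j <;> simp [x3, h0]

theorem e3_iff (i j : Fin 3) : (e3 : Matrix (Fin 3) (Fin 3) F) i j ≠ 0 ↔ i = Equiv.swap (0 : Fin 3) 2 j := by
  fin_cases i <;> fin_cases j <;> simp [e3, Equiv.swap_apply_def]

theorem h3_iff {s : F} (hs : s ≠ 0) (hq : s ^ q ≠ 0) (i j : Fin 3) : (h3 q s) i j ≠ 0 ↔ i = j := by
  fin_cases i <;> fin_cases j <;> simp [h3, hs, hq]

end Cfsg.Agent.Lib.SuBN.Small
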