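import Mathlib
import Cfsg.Agent.Lib.SpBN.RootGen

/-!
The simple reflections on `Fin n` commuting with the order reversing involution.
-/

set_option autoImplicit false
set_option linter.unusedSectionVars false
set_option linter.unusedSimpArgs false

namespace Cfsg.Agent.Lib.SuBN.Weyl

open Cfsg.Agent.Lib.SpBN.RootGen

variable {m ε : ℕ}

local notation "NN" => (2 * m + 2 + ε)

/-- The position of the first simple root entry. -/
def pa (i : Fin m) : Fin NN := ⟨i.val, by have := i.2; omega⟩

/-- The position of the second simple root entry. -/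
def pb (i : Fin m) : Fin NN := ⟨i.val + 1, by have := i.2; omega⟩

/-- The position of the last simple root. -/
def pm (m ε : ℕ) : Fin (2 * m + 2 + ε) := ⟨m, by omega⟩

theorem rev_val (x : Fin NN) : (Fin.rev x).val = 2 * m + 1 + ε - x.val := by
  rw [Fin.val_rev]
  have := x.2
  omega

/-- The reflection of a simple root of the first kind. -/
def tA (i : Fin m) : Equiv.Perm (Fin NN) :=
  Equiv.swap (pa i) (pb i) * Equiv.swap (Fin.rev (pb i)) (Fin.rev (pa i))

/-- The reflection of the last simple root. -/
def tL : Equiv.Perm (Fin NN) := Equiv.swap (pm m ε) (Fin.rev (pm m ε))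

/-- All simple reflections. -/
def tt : Option (Fin m) → Equiv.Perm (Fin NN)
  | some i => tA i
  | none => tL

theorem tA_val (i : Fin m) (x : Fin NN) : (tA i x).val =
    if x.val = i.val then i.val + 1
    else if x.val = i.val + 1 then i.val
    else if x.val = 2 * m + ε - i.val then 2 * m + 1 + ε - i.val
    else if x.val = 2 * m + 1 + ε - i.val then 2 * m + ε - i.val
    else x.val := by
  have hi := i.2
  have hx := x.2
  simp only [tA, Equiv.Perm.mul_apply, Equiv.swap_apply_def, Fin.ext_iff, pa, pb, rev_val]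
  split_ifs <;> (try simp only [rev_val] at *) <;> omega

theorem tL_val (x : Fin NN) : (tL x : Fin NN).val =
    if x.val = m then m + 1 + ε else if x.val = m + 1 + ε then m else x.val := by
  have hx := x.2
  simp only [tL, Equiv.swap_apply_def, Fin.ext_iff, pm, rev_val]
  split_ifs <;> (try simp only [rev_val] at *) <;> omega

theorem tA_sq (i : Fin m) : tA (ε := ε) i * tA i = 1 := by
  ext x
  have hi := i.2
  have hx := x.2
  simp only [Equiv.Perm.mul_apply, tA_val, Equiv.Perm.one_apply]
  split_ifs <;> omega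

theorem tL_sq : tL (m := m) (ε := ε) * tL = 1 := by
  simp only [tL, Equiv.swap_mul_self]

theorem tt_sq (j : Option (Fin m)) : tt (ε := ε) j * tt j = 1 := by
  cases j with
  | some i => exact tA_sq i
  | none => exact tL_sq

theorem tt_rev (j : Option (Fin m)) (x : Fin NN) : tt j (Fin.rev x) = Fin.rev (tt j x) := by
  have hx := x.2
  apply Fin.ext
  cases j with
  | some i =>
    have hi := i.2
    simp only [tt, tA_val, rev_val]
    split_ifs <;> omega
  | none =>
    simp only [tt, tL_val, rev_val]
    split_ifs <;> omega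

theorem tt_inj : Function.Injective (tt (m := m) (ε := ε)) := by
  have hA : ∀ i : Fin m, (tt (ε := ε) (some i)) (pa i) = pb i := by
    intro i
    apply Fin.ext
    simp [tt, tA_val, pa, pb]
  have hL : (tt (m := m) (ε := ε) none) (pm m ε) = Fin.rev (pm m ε) := by
    simp [tt, tL]
  intro j j' h
  cases j with
  | some i =>
    cases j' with
    | some i' =>
      have h1 := hA i
      rw [h] at h1
      have h2 := congrArg Fin.val h1
      have hi := i.2
      have hi' := i'.2
      simp only [tt, tA_val, pa, pb] at h2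
      split_ifs at h2 <;> first | (congr 1; apply Fin.ext; omega)
    | none =>
      have h1 := hA i
      rw [h] at h1
      have h2 := congrArg Fin.val h1
      have hi := i.2
      simp only [tt, tL_val, pa, pb] at h2
      split_ifs at h2 <;> omega
  | none =>
    cases j' with
    | some i' =>
      have h1 := hL
      rw [h] at h1
      have h2 := congrArg Fin.val h1
      have hi := i'.2
      simp only [tt, tA_val, pm, rev_val] at h2
      split_ifs at h2 <;> omega
    | none => rfl

/-! ### Inversions -/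

theorem inv_tA {i : Fin m} {r c : Fin NN} (h : IsInv Fin.val (tA i) r c) :
    (r = pa i ∧ c = pb i) ∨ (r = Fin.rev (pb i) ∧ c = Fin.rev (pa i)) := by
  obtain ⟨h1, h2⟩ := h
  have hi := i.2
  have hr := r.2
  have hc := c.2
  simp only [tA_val] at h2
  simp only [Fin.ext_iff, pa, pb, rev_val]
  split_ifs at h2 <;> omega

theorem inv_tL {r c : Fin NN} (h : IsInv Fin.val (tL (m := m) (ε := ε)) r c) :
    m ≤ r.val ∧ c.val ≤ m + 1 + ε := by
  obtain ⟨h1, h2⟩ := h
  have hr := r.2
  have hc := c.2
  simp only [tL_val] at h2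
  split_ifs at h2 <;> omega

theorem inv_tA_ab (i : Fin m) : IsInv Fin.val (tA (ε := ε) i) (pa i) (pb i) := by
  have hi := i.2
  refine ⟨by simp [pa, pb], ?_⟩
  simp only [tA_val, pa, pb]
  split_ifs <;> omega

theorem inv_tA_ab' (i : Fin m) : IsInv Fin.val (tA (ε := ε) i) (Fin.rev (pb i)) (Fin.rev (pa i)) := by
  have hi := i.2
  refine ⟨by simp only [pa, pb, rev_val]; omega, ?_⟩
  simp only [tA_val, pa, pb, rev_val]
  split_ifs <;> omega

theorem inv_tL_ab : IsInv Fin.val (tL (m := m) (ε := ε)) (pm m ε) (Fin.rev (pm m ε)) := by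
  refine ⟨by simp only [pm, rev_val]; omega, ?_⟩
  simp only [tL_val, pm, rev_val]
  split_ifs <;> omega

/-- The consecutive positions are inversions. -/
theorem cover (r c : Fin NN) (h : c.val = r.val + 1) (hε : ε ≤ 1) :
    ∃ j : Option (Fin m), IsInv Fin.val (tt j) r c := by
  have hr := r.2
  have hc := c.2
  by_cases h1 : r.val < m
  · refine ⟨some ⟨r.val, h1⟩, by omega, ?_⟩
    simp only [tt, tA_val]
    split_ifs <;> omega
  · by_cases h2 : r.val ≤ m + ε
    · refine ⟨none, by omega, ?_⟩
      simp only [tt, tL_val]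
      split_ifs <;> omega
    · refine ⟨some ⟨2 * m + ε - r.val, by omega⟩, by omega, ?_⟩
      simp only [tt, tA_val]
      split_ifs <;> omega

/-! ### Dichotomy -/

theorem dich (hε : ε ≤ 1) {π : Equiv.Perm (Fin NN)} (hπ : ∀ x, π (Fin.rev x) = Fin.rev (π x))
    (j : Option (Fin m)) :
    (∀ r c, IsInv Fin.val (tt j) r c → (π r).val < (π c).val) ∨
      (∀ r c, IsInv Fin.val (tt j) r c → (π c).val < (π r).val) := by
  have hv : ∀ x, (π (Fin.rev x)).val = 2 * m + 1 + ε - (π x).val := by
    intro x
    rw [hπ, rev_val]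
  cases j with
  | some i =>
    have hne : (π (pa i)).val ≠ (π (pb i)).val := fun e => by
      have := π.injective (Fin.ext e)
      have h2 := congrArg Fin.val this
      simp [pa, pb] at h2
    have b1 := (π (pa i)).2
    have b2 := (π (pb i)).2
    rcases lt_or_gt_of_ne hne with h | h
    · left
      intro r c hinv
      rcases inv_tA hinv with ⟨rfl, rfl⟩ | ⟨rfl, rfl⟩
      · exact h
      · rw [hv, hv]
        omega
    · right
      intro r c hinv
      rcases inv_tA hinv with ⟨rfl, rfl⟩ | ⟨rfl, rfl⟩
      · exact h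
      · rw [hv, hv]
        omega
  | none =>
    have hne : (π (pm m ε)).val ≠ (π (Fin.rev (pm m ε))).val := fun e => by
      have := π.injective (Fin.ext e)
      have h2 := congrArg Fin.val this
      simp only [pm, rev_val] at h2
      omega
    have b1 := (π (pm m ε)).2
    have e1 := hv (pm m ε)
    have hfix : ∀ x : Fin NN, x.val = m + 1 → ε = 1 → (π x).val = m + 1 := by
      intro x hx hε1
      have h3 : Fin.rev x = x := by
        apply Fin.ext
        rw [rev_val]
        omega
      have h4 := hv x
      rw [h3] at h4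
      have := (π x).2
      omega
    have hcase : ∀ r c : Fin NN, m ≤ r.val → c.val ≤ m + 1 + ε → r.val < c.val →
        r = pm m ε ∨ (r.val = m + 1 ∧ ε = 1) := by
      intro r c h1 h2 h3
      by_cases h4 : r.val = m
      · left
        exact Fin.ext h4
      · right
        omega
    have hcase2 : ∀ r c : Fin NN, m ≤ r.val → c.val ≤ m + 1 + ε → r.val < c.val →
        c = Fin.rev (pm m ε) ∨ (c.val = m + 1 ∧ ε = 1) := by
      intro r c h1 h2 h3
      by_cases h4 : c.val = m + 1 + ε
      · left
        apply Fin.ext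
        simp only [pm, rev_val]
        omega
      · right
        omega
    rcases lt_or_gt_of_ne hne with h | h
    · left
      intro r c hinv
      obtain ⟨h1, h2⟩ := inv_tL hinv
      have h3 : r.val < c.val := hinv.1
      have hr' := hcase r c h1 h2 h3
      have hc' := hcase2 r c h1 h2 h3
      rcases hr' with rfl | ⟨h5, h6⟩ <;> rcases hc' with rfl | ⟨h7, h8⟩
      · exact h
      · rw [hfix c h7 h8]
        omega
      · rw [hfix r h5 h6]
        omega
      · omega
    · right
      intro r c hinv
      obtain ⟨h1, h2⟩ := inv_tL hinv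
      have h3 : r.val < c.val := hinv.1
      have hr' := hcase r c h1 h2 h3
      have hc' := hcase2 r c h1 h2 h3
      rcases hr' with rfl | ⟨h5, h6⟩ <;> rcases hc' with rfl | ⟨h7, h8⟩
      · exact h
      · rw [hfix c h7 h8]
        omega
      · rw [hfix r h5 h6]
        omega
      · omega

/-! ### Generation -/

/-- The group generated by the simple reflections. -/
abbrev QQ (m ε : ℕ) : Subgroup (Equiv.Perm (Fin (2 * m + 2 + ε))) := Subgroup.closure (Set.range (tt (m := m) (ε := ε)))

theorem QQ_comm {q : Equiv.Perm (Fin NN)} (hq : q ∈ QQ m ε) (x : Fin NN) : q (Fin.rev x) = Fin.rev (q x) := by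
  induction hq using Subgroup.closure_induction generalizing x with
  | mem y hy =>
    obtain ⟨j, rfl⟩ := hy
    exact tt_rev j x
  | one => rfl
  | mul a b _ _ ha hb =>
    rw [Equiv.Perm.mul_apply, Equiv.Perm.mul_apply, hb, ha]
  | inv a _ ha =>
    have h1 := ha (a⁻¹ x)
    have e : a (a⁻¹ x) = x := a.apply_symm_apply x
    rw [e] at h1
    rw [Equiv.Perm.inv_eq_iff_eq, h1]

theorem M1 (d : ℕ) : ∀ (i : ℕ) (hl : i + d ≤ m), ∃ q ∈ QQ m ε,
    (q ⟨i + d, by omega⟩ : Fin NN).val = i ∧ ∀ c : Fin NN, c.val < i → q c = c := by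
  induction d with
  | zero =>
    intro i hl
    exact ⟨1, Subgroup.one_mem _, rfl, fun _ _ => rfl⟩
  | succ d ih =>
    intro i hl
    obtain ⟨q, hq, h1, h2⟩ := ih i (by omega)
    let i₀ : Fin m := ⟨i + d, by omega⟩
    refine ⟨q * tA i₀, Subgroup.mul_mem _ hq (Subgroup.subset_closure ⟨some i₀, rfl⟩), ?_, fun c hc => ?_⟩
    · have e : tA (ε := ε) i₀ ⟨i + (d + 1), by omega⟩ = ⟨i + d, by omega⟩ := by
        apply Fin.ext
        simp only [tA_val, i₀]
        split_ifs <;> omega
      rw [Equiv.Perm.mul_apply, e, h1]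
    · have e : tA (ε := ε) i₀ c = c := by
        apply Fin.ext
        simp only [tA_val, i₀]
        split_ifs <;> omega
      rw [Equiv.Perm.mul_apply, e, h2 c hc]

theorem M2 (d : ℕ) : ∀ (l : ℕ) (hl : l + d = m), ∃ q ∈ QQ m ε,
    (q ⟨l, by omega⟩ : Fin NN).val = m ∧ ∀ c : Fin NN, c.val < l → q c = c := by
  induction d with
  | zero =>
    intro l hl
    exact ⟨1, Subgroup.one_mem _, by simpa using hl, fun _ _ => rfl⟩
  | succ d ih =>
    intro l hl
    obtain ⟨q, hq, h1, h2⟩ := ih (l + 1) (by omega)
    let i₀ : Fin m := ⟨l, by omega⟩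
    refine ⟨q * tA i₀, Subgroup.mul_mem _ hq (Subgroup.subset_closure ⟨some i₀, rfl⟩), ?_, fun c hc => ?_⟩
    · have e : tA (ε := ε) i₀ ⟨l, by omega⟩ = ⟨l + 1, by omega⟩ := by
        apply Fin.ext
        simp only [tA_val, i₀]
        split_ifs <;> omega
      rw [Equiv.Perm.mul_apply, e, h1]
    · have e : tA (ε := ε) i₀ c = c := by
        apply Fin.ext
        simp only [tA_val, i₀]
        split_ifs <;> omega
      rw [Equiv.Perm.mul_apply, e, h2 c (by omega)]

theorem step (hε : ε ≤ 1) {π : Equiv.Perm (Fin NN)} (hπ : ∀ x, π (Fin.rev x) = Fin.rev (π x)) (i : ℕ)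
    (hi : i ≤ m) (hfix : ∀ c : Fin NN, c.val < i → π c = c) :
    ∃ q ∈ QQ m ε, ∀ c : Fin NN, c.val < i + 1 → (q * π) c = c := by
  set i' : Fin NN := ⟨i, by omega⟩ with hi'
  set x := π i' with hx
  have hx1 : i ≤ x.val := by
    by_contra h
    have h1 := hfix x (by omega)
    have h2 : x = i' := π.injective h1
    rw [h2] at h
    simp [hi'] at h
  have hx2 : x.val ≤ 2 * m + 1 + ε - i := by
    by_contra h
    have h0 := x.2
    have h1 := hfix (Fin.rev x) (by rw [rev_val]; omega)
    rw [hπ] at h1
    have h2 : π x = x := Fin.rev_injective h1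
    have h3 : x = i' := π.injective h2
    rw [h3] at h
    simp [hi'] at h
    omega
  have main : ∃ q ∈ QQ m ε, (q x).val = i ∧ ∀ c : Fin NN, c.val < i → q c = c := by
    by_cases h : x.val ≤ m
    · obtain ⟨q, hq, h1, h2⟩ := M1 (m := m) (ε := ε) (x.val - i) i (by omega)
      refine ⟨q, hq, ?_, h2⟩
      have e : x = ⟨i + (x.val - i), by omega⟩ := by
        apply Fin.ext
        simp only
        omega
      rw [e]
      exact h1
    · have hmid : x.val ≠ m + 1 ∨ ε = 0 := by
        by_contra h3
        push_neg at h3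
        obtain ⟨h3, h4⟩ := h3
        have h5 : Fin.rev x = x := by
          apply Fin.ext
          rw [rev_val]
          omega
        have h6 := hπ i'
        rw [← hx, h5, hx] at h6
        have h7 := congrArg Fin.val (π.injective h6)
        rw [rev_val] at h7
        simp only [hi'] at h7
        omega
      set l := 2 * m + 1 + ε - x.val with hl
      obtain ⟨q₂, hq₂, h1, h2⟩ := M2 (m := m) (ε := ε) (m - l) l (by omega)
      obtain ⟨q₁, hq₁, h3, h4⟩ := M1 (m := m) (ε := ε) (m - i) i (by omega)
      refine ⟨q₁ * (tL * q₂), Subgroup.mul_mem _ hq₁ (Subgroup.mul_mem _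
        (Subgroup.subset_closure ⟨none, rfl⟩) hq₂), ?_, fun c hc => ?_⟩
      · have e1 : x = Fin.rev ⟨l, by omega⟩ := by
          apply Fin.ext
          rw [rev_val]
          simp only
          omega
        have e2 : q₂ x = Fin.rev (pm m ε) := by
          rw [e1, QQ_comm hq₂]
          congr 1
          exact Fin.ext h1
        have e3 : (tL (m := m) (ε := ε)) (Fin.rev (pm m ε)) = ⟨i + (m - i), by omega⟩ := by
          apply Fin.ext
          simp only [tL, Equiv.swap_apply_right, pm]
          omega
        rw [Equiv.Perm.mul_apply, Equiv.Perm.mul_apply, e2, e3]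
        exact h3
      · have e1 : tL (m := m) (ε := ε) c = c := by
          apply Fin.ext
          simp only [tL_val]
          split_ifs <;> omega
        rw [Equiv.Perm.mul_apply, Equiv.Perm.mul_apply, h2 c (by omega), e1, h4 c hc]
  obtain ⟨q, hq, h1, h2⟩ := main
  refine ⟨q, hq, fun c hc => ?_⟩
  rw [Equiv.Perm.mul_apply]
  by_cases h3 : c.val < i
  · rw [hfix c h3, h2 c h3]
  · have e : c = i' := Fin.ext (by simp only [hi']; omega)
    rw [e]
    exact Fin.ext h1

theorem eq_one_of_fix (hε : ε ≤ 1) {π : Equiv.Perm (Fin NN)} (hπ : ∀ x, π (Fin.rev x) = Fin.rev (π x))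
    (hfix : ∀ c : Fin NN, c.val < m + 1 → π c = c) : π = 1 := by
  ext x
  simp only [Equiv.Perm.one_apply]
  have hx := x.2
  by_cases h1 : x.val < m + 1
  · rw [hfix x h1]
  · by_cases h2 : (Fin.rev x).val < m + 1
    · have h3 := hfix _ h2
      rw [hπ] at h3
      rw [Fin.rev_injective h3]
    · rw [rev_val] at h2
      have h3 : Fin.rev x = x := by
        apply Fin.ext
        rw [rev_val]
        omega
      have h4 := hπ x
      rw [h3] at h4
      have h5 := congrArg Fin.val h4
      rw [rev_val] at h5
      have h6 := (π x).2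
      omega

theorem mem_QQ_aux (hε : ε ≤ 1) (d : ℕ) : ∀ (π : Equiv.Perm (Fin NN)), (∀ x, π (Fin.rev x) = Fin.rev (π x)) →
    (d ≤ m + 1) → (∀ c : Fin NN, c.val < m + 1 - d → π c = c) → π ∈ QQ m ε := by
  induction d with
  | zero =>
    intro π hπ _ hfix
    rw [eq_one_of_fix hε hπ hfix]
    exact Subgroup.one_mem _
  | succ d ih =>
    intro π hπ hd hfix
    obtain ⟨q, hq, h1⟩ := step hε hπ (m + 1 - (d + 1)) (by omega) hfix
    have h2 : q * π ∈ QQ m ε := ih (q * π) (fun x => by
      rw [Equiv.Perm.mul_apply, Equiv.Perm.mul_apply, hπ, QQ_comm hq]) (by omega) (fun c hc => h1 c (by omega))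
    have h3 : π = q⁻¹ * (q * π) := by group
    rw [h3]
    exact Subgroup.mul_mem _ (Subgroup.inv_mem _ hq) h2

/-- All permutations commuting with the opposition are products of simple reflections. -/
theorem mem_QQ (hε : ε ≤ 1) {π : Equiv.Perm (Fin NN)} (hπ : ∀ x, π (Fin.rev x) = Fin.rev (π x)) :
    π ∈ QQ m ε :=
  mem_QQ_aux hε (m + 1) π hπ le_rfl (fun c hc => by omega)

end Cfsg.Agent.Lib.SuBN.Weyl
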