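import Cfsg.Agent.Lib.SuBN.Small
import Cfsg.Agent.Lib.SuBN.Weyl

/-!
The simple roots of `SU_n`.
-/

set_option autoImplicit false
set_option linter.unusedSectionVars false
set_option linter.unusedSimpArgs false

namespace Cfsg.Agent.Lib.SuBN.Types

open scoped Matrix
open Cfsg Cfsg.Agent.Lib.SpBN.Mat Cfsg.Agent.Lib.SpBN.RootGen
open Cfsg.Agent.Lib.Classical.Herm.Basic Cfsg.Agent.Lib.Classical.Herm.SU
open Cfsg.Agent.Lib.Fusion.PSU.Basis
open Cfsg.Agent.Lib.SuBN.Frame Cfsg.Agent.Lib.SuBN.Emb Cfsg.Agent.Lib.SuBN.Small Cfsg.Agent.Lib.SuBN.Weyl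

variable {F : Type*} [Field F] [Fintype F] {q n : ℕ}

section Gen

variable (hF : Fintype.card F = q ^ 2) (W : WB F q n)

include hF

theorem mem_Xs_mk {d : ℕ} {f : Fin d → Fin n} (hm : StrictMono f) (hrev : ∀ i, f (Fin.rev i) = Fin.rev (f i))
    {z : Matrix (Fin d) (Fin d) F} (h1 : stA q z * z = 1) (h2 : z.det = 1) (hz : ∀ i j, j < i → z i j = 0)
    (hz1 : ∀ i, z i i = 1) {τ : Equiv.Perm (Fin n)}
    (hinv : ∀ i j, i ≠ j → z i j ≠ 0 → IsInv Fin.val τ (f i) (f j)) :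
    mk hF W hm.injective hrev z h1 h2 ∈ Xs (rho W) Fin.val Fin.val_injective τ := by
  refine ⟨isU_mk hF W hrev h1 h2 hm hz hz1, fun r c hrc hnot => ?_⟩
  rw [rho_apply, M_mk]
  by_cases hr : r ∈ Set.range f <;> by_cases hc' : c ∈ Set.range f
  · obtain ⟨i, rfl⟩ := hr
    obtain ⟨j, rfl⟩ := hc'
    rw [emb_ff]
    by_contra h3
    exact hnot (hinv i j (fun e => hrc (by rw [e])) h3)
  · obtain ⟨i, rfl⟩ := hr
    rw [emb_fo _ _ hc']
  · obtain ⟨j, rfl⟩ := hc'
    rw [emb_of _ _ hr]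
  · rw [emb_oo _ hr hc', if_neg hrc]

omit W in
theorem q_ne_zero : q ≠ 0 := by
  have := two_le_q hF
  omega

variable {W} in
theorem link {u : SU n F q} (hu : IsU (rho W) Fin.val u) {r c : Fin n} (h : c.val = r.val + 1) :
    (W.M u (Fin.rev c) (Fin.rev r)) ^ q = - W.M u r c := by
  have h1 := inv_consec (φ := rho W) Fin.val_injective hu h
  rw [rho_apply, rho_apply, M_inv hF] at h1
  exact h1

variable {W} in
theorem link0 {u : SU n F q} (hu : IsU (rho W) Fin.val u) {r c : Fin n} (h : c.val = r.val + 1)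
    (h0 : W.M u r c = 0) : W.M u (Fin.rev c) (Fin.rev r) = 0 := by
  have h1 := link hF hu h
  rw [h0, neg_zero] at h1
  exact (pow_eq_zero_iff (q_ne_zero hF)).1 h1

variable {W} in
theorem link1 {u : SU n F q} (hu : IsU (rho W) Fin.val u) {r c : Fin n} (h : c.val = r.val + 1) :
    W.M u (Fin.rev c) (Fin.rev r) = - (W.M u r c) ^ q := by
  have h1 := link hF hu h
  have h2 := pow_q_pow_q hF (W.M u (Fin.rev c) (Fin.rev r))
  rw [h1, pow_q_neg hF] at h2
  exact h2.symm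

end Gen

/-! ### The roots of the first kind -/

variable {m ε : ℕ}

local notation "NN" => (2 * m + 2 + ε)

/-- The block of a root of the first kind. -/
def f4 (i : Fin m) : Fin 4 → Fin NN := ![pa i, pb i, Fin.rev (pb i), Fin.rev (pa i)]

theorem f4_mono (i : Fin m) : StrictMono (f4 (ε := ε) i) := by
  have hi := i.2
  rw [Fin.strictMono_iff_lt_succ]
  intro l
  fin_cases l <;> simp only [f4, pa, pb, Fin.lt_def] <;> simp [rev_val] <;> omega

theorem f4_rev (i : Fin m) (l : Fin 4) : f4 (ε := ε) i (Fin.rev l) = Fin.rev (f4 i l) := by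
  fin_cases l <;> simp [f4]

theorem f4_0 (i : Fin m) : f4 (ε := ε) i 0 = pa i := rfl
theorem f4_1 (i : Fin m) : f4 (ε := ε) i 1 = pb i := rfl
theorem f4_2 (i : Fin m) : f4 (ε := ε) i 2 = Fin.rev (pb i) := rfl
theorem f4_3 (i : Fin m) : f4 (ε := ε) i 3 = Fin.rev (pa i) := rfl

theorem f4_tau (i : Fin m) (l : Fin 4) :
    tA (ε := ε) i (f4 i l) = f4 i ((Equiv.swap (0 : Fin 4) 1 * Equiv.swap (2 : Fin 4) 3) l) := by
  have hi := i.2
  apply Fin.ext
  rw [tA_val]
  fin_cases l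
  · have e : (Equiv.swap (0 : Fin 4) 1 * Equiv.swap (2 : Fin 4) 3) 0 = 1 := by decide
    simp only [Fin.zero_eta, e, f4_0, f4_1]
    simp only [pa, pb]
    split_ifs <;> omega
  · have e : (Equiv.swap (0 : Fin 4) 1 * Equiv.swap (2 : Fin 4) 3) 1 = 0 := by decide
    simp only [Fin.mk_one, e, f4_0, f4_1]
    simp only [pa, pb]
    split_ifs <;> omega
  · have e : (Equiv.swap (0 : Fin 4) 1 * Equiv.swap (2 : Fin 4) 3) 2 = 3 := by decide
    simp only [Fin.reduceFinMk, e, f4_2, f4_3]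
    simp only [pa, pb, rev_val]
    split_ifs <;> omega
  · have e : (Equiv.swap (0 : Fin 4) 1 * Equiv.swap (2 : Fin 4) 3) 3 = 2 := by decide
    simp only [Fin.reduceFinMk, e, f4_2, f4_3]
    simp only [pa, pb, rev_val]
    split_ifs <;> omega

theorem f4_out (i : Fin m) {x : Fin NN} (hx : ¬ x ∈ Set.range (f4 (ε := ε) i)) : tA i x = x := by
  have hi := i.2
  have h0 : x ≠ pa i := fun e => hx ⟨0, e.symm⟩
  have h1 : x ≠ pb i := fun e => hx ⟨1, e.symm⟩
  have h2 : x ≠ Fin.rev (pb i) := fun e => hx ⟨2, e.symm⟩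
  have h3 : x ≠ Fin.rev (pa i) := fun e => hx ⟨3, e.symm⟩
  simp only [tA, Equiv.Perm.mul_apply]
  rw [Equiv.swap_apply_of_ne_of_ne h2 h3, Equiv.swap_apply_of_ne_of_ne h0 h1]

theorem pab (i : Fin m) : (pb (ε := ε) i).val = (pa (ε := ε) i).val + 1 := rfl

section A

variable (hF : Fintype.card F = q ^ 2) (W : WB F q (2 * m + 2 + ε))

include hF

/-- A root element of the first kind. -/
noncomputable def xA (i : Fin m) (t : F) : SU NN F q :=
  mk hF W (f4_mono i).injective (f4_rev i) (x4 q t) (st_x4 hF t) (det_x4 t)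

/-- The reflection of a root of the first kind. -/
noncomputable def eA (i : Fin m) : SU NN F q :=
  mk hF W (f4_mono i).injective (f4_rev i) e4 (st_e4 hF) det_e4

/-- The torus element of a root of the first kind. -/
noncomputable def hA (i : Fin m) {t : F} (ht : t ≠ 0) : SU NN F q :=
  mk hF W (f4_mono i).injective (f4_rev i) (h4 q t) (st_h4 hF ht) (det_h4 ht (pow_ne_zero _ ht))

theorem isMo_eA (i : Fin m) : IsMo (rho W) (eA hF W i) (tA i) :=
  isMo_mk hF W _ _ _ (f4_tau i) (fun _ hx => f4_out i hx) e4_iff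

theorem isMo_hA (i : Fin m) {t : F} (ht : t ≠ 0) : IsMo (rho W) (hA hF W i ht) 1 :=
  isMo_mk_one hF W _ _ _ (h4_iff ht (pow_ne_zero _ ht))

theorem xA_mem (i : Fin m) (t : F) : xA hF W i t ∈ Xs (rho W) Fin.val Fin.val_injective (tA i) := by
  refine mem_Xs_mk hF W (f4_mono i) (f4_rev i) _ _ (fun _ _ h => x4_low t h) (x4_diag t) ?_
  intro l l' h1 h2
  by_cases h3 : l = 0 ∧ l' = 1
  · obtain ⟨rfl, rfl⟩ := h3
    exact inv_tA_ab i
  · by_cases h4 : l = 2 ∧ l' = 3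
    · obtain ⟨rfl, rfl⟩ := h4
      exact inv_tA_ab' i
    · exact absurd (x4_zero t h1 h3 h4) h2

theorem xA_ab (i : Fin m) (t : F) : W.M (xA hF W i t) (pa i) (pb i) = t := by
  rw [xA, M_mk, ← f4_0, ← f4_1, emb_ff, x4_01]

theorem xA_eq (i : Fin m) {x : SU NN F q} (hx : x ∈ Xs (rho W) Fin.val Fin.val_injective (tA i)) :
    x = xA hF W i (W.M x (pa i) (pb i)) := by
  have hinj := (f4_mono (ε := ε) i).injective
  refine eq_mk hF W (f4_rev i) (st_x4 hF _) (det_x4 _) ?_ ?_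
  · intro l l'
    by_cases h1 : l = l'
    · subst h1
      rw [x4_diag]
      exact hx.1.2 _
    by_cases h2 : l = 0 ∧ l' = 1
    · obtain ⟨rfl, rfl⟩ := h2
      rw [x4_01, f4_0, f4_1]
    by_cases h3 : l = 2 ∧ l' = 3
    · obtain ⟨rfl, rfl⟩ := h3
      rw [x4_23, f4_2, f4_3]
      exact link1 hF hx.1 (pab i)
    rw [x4_zero _ h1 h2 h3]
    refine hx.2 _ _ (fun e => h1 (hinj e)) (fun hinv => ?_)
    rcases inv_tA hinv with ⟨e1, e2⟩ | ⟨e1, e2⟩
    · exact h2 ⟨hinj e1, hinj e2⟩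
    · exact h3 ⟨hinj e1, hinj e2⟩
  · intro r c hout
    by_cases h1 : r = c
    · subst h1
      rw [if_pos rfl]
      exact hx.1.2 _
    · rw [if_neg h1]
      refine hx.2 _ _ h1 (fun hinv => ?_)
      rcases inv_tA hinv with ⟨e1, e2⟩ | ⟨e1, e2⟩
      · rcases hout with h | h
        · exact h ⟨0, e1.symm⟩
        · exact h ⟨1, e2.symm⟩
      · rcases hout with h | h
        · exact h ⟨2, e1.symm⟩
        · exact h ⟨3, e2.symm⟩

theorem dec_A (i : Fin m) {u : SU NN F q} (hu : IsU (rho W) Fin.val u) :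
    ∃ a ∈ Ys (rho W) Fin.val Fin.val_injective (tA i), ∃ x ∈ Xs (rho W) Fin.val Fin.val_injective (tA i),
      u = a * x := by
  set t := W.M u (pa i) (pb i) with ht
  have hx := xA_mem hF W i t
  set x := xA hF W i t with hxdef
  have hu' : IsU (rho W) Fin.val (u * x⁻¹) :=
    (Uu (rho W) Fin.val Fin.val_injective).mul_mem hu ((Uu (rho W) Fin.val Fin.val_injective).inv_mem hx.1)
  have h0 : W.M (u * x⁻¹) (pa i) (pb i) = 0 := by
    have h1 : W.M (u * x⁻¹) (pa i) (pb i) = W.M u (pa i) (pb i) + W.M x⁻¹ (pa i) (pb i) :=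
      consec_mul (φ := rho W) Fin.val_injective hu
        ((Uu (rho W) Fin.val Fin.val_injective).inv_mem hx.1) (pab i)
    have h2 : W.M x⁻¹ (pa i) (pb i) = - W.M x (pa i) (pb i) :=
      inv_consec (φ := rho W) Fin.val_injective hx.1 (pab i)
    rw [h1, h2, hxdef, xA_ab, ← ht]
    ring
  refine ⟨u * x⁻¹, ⟨hu', fun r c hinv => ?_⟩, x, hx, by group⟩
  rcases inv_tA hinv with ⟨rfl, rfl⟩ | ⟨rfl, rfl⟩
  · exact h0
  · exact link0 hF hu' (pab i) h0

theorem sl2_A (i : Fin m) {x : SU NN F q} (hx : x ∈ Xs (rho W) Fin.val Fin.val_injective (tA i)) :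
    eA hF W i * x * (eA hF W i)⁻¹ = 1 ∨
      ∃ x₁ ∈ Xs (rho W) Fin.val Fin.val_injective (tA i), ∃ h, IsMo (rho W) h 1 ∧
      ∃ x₂ ∈ Xs (rho W) Fin.val Fin.val_injective (tA i),
        eA hF W i * x * (eA hF W i)⁻¹ = x₁ * eA hF W i * h * x₂ := by
  have hxe := xA_eq hF W i hx
  set t := W.M x (pa i) (pb i) with ht
  by_cases h0 : t = 0
  · left
    have h1 : x = 1 := by
      apply W.ext_M
      rw [hxe, xA, M_mk, h0, x4_one hF, emb_one, W.M_one]
    rw [h1]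
    group
  · right
    refine ⟨xA hF W i (-t⁻¹), xA_mem hF W i _, hA hF W i h0, isMo_hA hF W i h0, xA hF W i (-t⁻¹),
      xA_mem hF W i _, ?_⟩
    rw [mul_inv_eq_iff_eq_mul]
    apply W.ext_M
    rw [hxe]
    simp only [W.M_mul, xA, eA, hA, M_mk, ← emb_mul]
    rw [rel4 h0 hF]

theorem ne_A (i : Fin m) : ∃ x ∈ Xs (rho W) Fin.val Fin.val_injective (tA i), ∃ r c,
    IsInv Fin.val (tA (ε := ε) i) r c ∧ rho W x r c ≠ 0 :=
  ⟨xA hF W i 1, xA_mem hF W i 1, pa i, pb i, inv_tA_ab i, by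
    rw [rho_apply, xA_ab]
    exact one_ne_zero⟩

end A

end Cfsg.Agent.Lib.SuBN.Types
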